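/-
KGroups: a large normal subgroup with all squares in a central four-group `E` contains an involution
outside `E` generating a normal subgroup together with `E` (a Chevalley–Warning parity count).
-/
import Mathlib

set_option autoImplicit false
set_option linter.style.haveILetI false

namespace CfsgLib.KGroups.QuadCount

open scoped commutatorElement

section Deg

variable {V : Type*} [Group V]

/-- `f` has degree at most `d`. -/
def Deg : ℕ → (V → ZMod 2) → Prop
  | 0, f => ∀ a v, f (a * v) = f v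
  | d + 1, f => ∀ a, Deg d fun v => f (a * v) + f v

theorem add_self_eq (x : ZMod 2) : x + x = 0 := by revert x; decide

theorem deg_succ : ∀ {d : ℕ} {f : V → ZMod 2}, Deg d f → Deg (d + 1) f := by
  intro d
  induction d with
  | zero => intro f hf a b v; show f (a * (b * v)) + f (b * v) = f (a * v) + f v; rw [hf a, hf a, add_self_eq, add_self_eq]
  | succ d ih => intro f hf a; exact ih (hf a)

theorem deg_add : ∀ {d : ℕ} {f g : V → ZMod 2}, Deg d f → Deg d g → Deg d fun v => f v + g v := by
  intro d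
  induction d with
  | zero => intro f g hf hg a v; simp only [hf a, hg a]
  | succ d ih =>
    intro f g hf hg a
    have := ih (hf a) (hg a)
    convert this using 2 with v
    ring

theorem deg_shift (hcomm : ∀ a b : V, a * b = b * a) :
    ∀ {d : ℕ} {f : V → ZMod 2}, Deg d f → ∀ a, Deg d fun v => f (a * v) := by
  intro d
  induction d with
  | zero =>
    intro f hf a b v
    simp only [hf a]
    exact hf b v
  | succ d ih =>
    intro f hf a b
    have := ih (hf b) a
    convert this using 2 with v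
    show f (a * (b * v)) + f (a * v) = f (b * (a * v)) + f (a * v)
    rw [← mul_assoc, ← mul_assoc, hcomm a b]

theorem deg_const_mul (c : ZMod 2) : ∀ {d : ℕ} {f : V → ZMod 2}, Deg d f → Deg d fun v => c * f v := by
  intro d
  induction d with
  | zero => intro f hf a v; simp only [hf a]
  | succ d ih =>
    intro f hf a
    have := ih (hf a)
    convert this using 2 with v
    ring

theorem deg_mul (hcomm : ∀ a b : V, a * b = b * a) :
    ∀ (n i j : ℕ), i + j = n → ∀ {f g : V → ZMod 2}, Deg i f → Deg j g →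
      Deg n fun v => f v * g v := by
  intro n
  induction n with
  | zero =>
    intro i j hij f g hf hg
    obtain ⟨rfl, rfl⟩ : i = 0 ∧ j = 0 := by omega
    intro a v
    simp only [hf a, hg a]
  | succ n ih =>
    intro i j hij f g hf hg
    rcases i with _ | i
    · obtain rfl : j = n + 1 := by omega
      have he : ∀ v, f v = f 1 := fun v => by simpa using hf v 1
      have := deg_const_mul (f 1) hg
      convert this using 2 with v
      rw [he v]
    rcases j with _ | j
    · obtain rfl : i = n := by omega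
      have he : ∀ v, g v = g 1 := fun v => by simpa using hg v 1
      have := deg_const_mul (g 1) hf
      convert this using 2 with v
      rw [he v, mul_comm]
    intro a
    have h1 : Deg n fun v => (f (a * v) + f v) * g (a * v) :=
      ih i (j + 1) (by omega) (hf a) (deg_shift hcomm hg a)
    have h2 : Deg n fun v => f v * (g (a * v) + g v) := ih (i + 1) j (by omega) hf (hg a)
    convert deg_add h1 h2 using 2 with v
    have := add_self_eq (f v * g (a * v))
    linear_combination -this

open Classical in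
/-- A function of degree less than `n` sums to zero over an elementary abelian group of order at
least `2 ^ n`. -/
theorem sum_eq_zero [Fintype V] (hcomm : ∀ a b : V, a * b = b * a) (hV : IsPGroup 2 V) :
    ∀ (d : ℕ) (f : V → ZMod 2), Deg d f → ∀ W : Subgroup V, 2 ^ (d + 1) ≤ Nat.card W →
      ∑ v ∈ Finset.univ.filter (fun v => v ∈ W), f v = 0 := by
  classical
  haveI : Fact (Nat.Prime 2) := ⟨Nat.prime_two⟩
  intro d
  induction d with
  | zero =>
    intro f hf W hW
    have he : ∀ v, f v = f 1 := fun v => by simpa using hf v 1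
    rw [Finset.sum_congr rfl (fun v _ => he v), Finset.sum_const, nsmul_eq_mul]
    have hc : (Finset.univ.filter (fun v => v ∈ W)).card = Nat.card W := by
      rw [Nat.card_eq_fintype_card, Fintype.card_subtype]
    obtain ⟨k, hk⟩ := IsPGroup.iff_card.1 (hV.to_subgroup W)
    rw [hc, hk]
    rcases k with _ | k
    · rw [hk] at hW; simp at hW
    · rw [show ((2 ^ (k + 1) : ℕ) : ZMod 2) = 0 by
        rw [ZMod.natCast_eq_zero_iff]; exact dvd_pow_self 2 (Nat.succ_ne_zero k), zero_mul]
  | succ d ih =>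
    intro f hf W hW
    obtain ⟨k, hk⟩ := IsPGroup.iff_card.1 (hV.to_subgroup W)
    rcases k with _ | k
    · rw [hk] at hW
      have : 2 ^ 1 ≤ 2 ^ (d + 1 + 1) := Nat.pow_le_pow_right two_pos (by omega)
      simp at hW this
    obtain ⟨T, hT⟩ := Sylow.exists_subgroup_card_pow_prime (G := W) 2 (n := k)
      (by rw [hk]; exact pow_dvd_pow 2 (Nat.le_succ k))
    have hidx : T.index = 2 := by
      have := T.card_mul_index
      rw [hT, hk, pow_succ] at this
      exact Nat.eq_of_mul_eq_mul_left (by positivity) this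
    obtain ⟨a, ha⟩ : ∃ a : W, a ∉ T := by
      by_contra! hall
      rw [(Subgroup.eq_top_iff' T).2 hall, Subgroup.index_top] at hidx
      omega
    set T' := T.map W.subtype with hT'
    have hTW : T' ≤ W := Subgroup.map_subtype_le T
    have hmemT : ∀ w : W, (w : V) ∈ T' ↔ w ∈ T := fun w =>
      ⟨fun ⟨u, hu, e⟩ => by rwa [← Subtype.ext e], fun h => ⟨w, h, rfl⟩⟩
    have hT'c : 2 ^ (d + 1) ≤ Nat.card T' := by
      rw [hT', Subgroup.card_map_of_injective W.subtype_injective, hT]
      rw [hk] at hW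
      exact Nat.pow_le_pow_right two_pos (by
        have := (Nat.pow_le_pow_iff_right (by norm_num : 1 < 2)).1 hW; omega)
    have hsplit : Finset.univ.filter (fun v => v ∈ W) =
        Finset.univ.filter (fun v => v ∈ T') ∪
          (Finset.univ.filter (fun v => v ∈ T')).image (fun v => (a : V) * v) := by
      ext v
      simp only [Finset.mem_filter, Finset.mem_univ, true_and, Finset.mem_union, Finset.mem_image]
      constructor
      · intro hv
        by_cases hvT : v ∈ T'
        · exact Or.inl hvT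
        · refine Or.inr ⟨(a : V)⁻¹ * v, ?_, mul_inv_cancel_left _ _⟩
          have := (hmemT (a⁻¹ * ⟨v, hv⟩)).2 ((Subgroup.mul_mem_iff_of_index_two hidx).2
            (iff_of_false (fun h => ha (T.inv_mem_iff.1 h)) fun h => hvT ((hmemT ⟨v, hv⟩).2 h)))
          exact this
      · rintro (hv | ⟨u, hu, rfl⟩)
        · exact hTW hv
        · exact W.mul_mem a.2 (hTW hu)
    have hdisj : Disjoint (Finset.univ.filter (fun v => v ∈ T'))
        ((Finset.univ.filter (fun v => v ∈ T')).image (fun v => (a : V) * v)) := by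
      rw [Finset.disjoint_left]
      intro v hv hv'
      simp only [Finset.mem_filter, Finset.mem_univ, true_and, Finset.mem_image] at hv hv'
      obtain ⟨u, hu, rfl⟩ := hv'
      exact ha ((hmemT a).1 (by simpa using T'.mul_mem hv (T'.inv_mem hu)))
    rw [hsplit, Finset.sum_union hdisj, Finset.sum_image (fun u _ v _ h => mul_left_cancel h),
      ← Finset.sum_add_distrib]
    have := ih _ (hf (a : V)) T' hT'c
    rw [← this]
    exact Finset.sum_congr rfl fun v _ => add_comm _ _

end Deg

theorem zero_or_succ (x : ZMod 2) : x = 0 ∨ x + 1 = 0 := by revert x; decide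

/-- A normal subgroup `L` of a 2-group, of order at least `2 ^ 7`, with all squares in a central (in
`L`) four-group `E`, contains an involution outside `E` whose coset modulo `E` is invariant. -/
theorem exists_involution_invariant {P : Type*} [Group P] [Finite P] (hP : IsPGroup 2 P)
    (E L : Subgroup P) [hEn : E.Normal] [hLn : L.Normal] (hEL : E ≤ L)
    (hcen : ∀ l ∈ L, ∀ e ∈ E, l * e = e * l) (hE1 : ∀ e ∈ E, e * e = 1) (hE4 : Nat.card E = 4)
    (hsq : ∀ l ∈ L, l * l ∈ E) (hbig : 128 ≤ Nat.card L) :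
    ∃ x ∈ L, x ∉ E ∧ x * x = 1 ∧ ∀ g : P, g * x * g⁻¹ * x⁻¹ ∈ E := by
  classical
  haveI : Fact (Nat.Prime 2) := ⟨Nat.prime_two⟩
  let V := L.map (QuotientGroup.mk' E)
  haveI : Fintype V := Fintype.ofFinite _
  have hVc : 32 ≤ Nat.card V := by
    have := ((QuotientGroup.mk' E).comp L.subtype).ker.index_mul_card
    rw [Subgroup.index_ker, MonoidHom.range_comp, Subgroup.range_subtype] at this
    have hk : Nat.card (((QuotientGroup.mk' E).comp L.subtype).ker) ≤ 4 := by
      rw [← hE4]
      refine Nat.card_le_card_of_injective (fun z => (⟨((z : L) : P),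
        (QuotientGroup.eq_one_iff _).1 z.2⟩ : E)) fun z z' h => ?_
      exact Subtype.ext (Subtype.ext (congrArg (fun w : E => (w : P)) h))
    have h' : Nat.card V * Nat.card (((QuotientGroup.mk' E).comp L.subtype).ker) = Nat.card L := this
    have := Nat.mul_le_mul_left (Nat.card V) hk
    omega
  have hlift : ∀ v : V, ∃ l ∈ L, (l : P ⧸ E) = v := fun v => v.2
  choose r hrL hr using hlift
  have hVsq : ∀ v : V, v * v = 1 := fun v => by
    apply Subtype.ext
    show (v : P ⧸ E) * v = 1
    rw [← hr, ← QuotientGroup.mk_mul, QuotientGroup.eq_one_iff]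
    exact hsq _ (hrL v)
  have hcomm : ∀ a b : V, a * b = b * a := fun a b => by
    rw [← mul_inv_eq_one, mul_inv_rev, inv_eq_of_mul_eq_one_right (hVsq a),
      inv_eq_of_mul_eq_one_right (hVsq b)]
    exact hVsq (a * b)
  have hVp : IsPGroup 2 V := fun v => ⟨1, by rw [pow_one, pow_two, hVsq]⟩
  have hcen' : ∀ {l e : P}, l ∈ L → e ∈ E → Commute l e := fun hl he => hcen _ hl _ he
  -- the squaring form
  have hwd : ∀ l ∈ L, ∀ l' ∈ L, (l : P ⧸ E) = l' → l * l = l' * l' := by
    intro l hl l' hl' h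
    obtain ⟨e, he, rfl⟩ : ∃ e ∈ E, l' = l * e :=
      ⟨l⁻¹ * l', QuotientGroup.eq.1 h, (mul_inv_cancel_left _ _).symm⟩
    rw [show l * e * (l * e) = l * (e * l) * e by group, ← (hcen' hl he).eq,
      show l * (l * e) * e = l * l * (e * e) by group, hE1 e he, mul_one]
  let q : V → P := fun v => r v * r v
  have hqE : ∀ v, q v ∈ E := fun v => hsq _ (hrL v)
  have hqmul : ∀ a v : V, q (a * v) = q a * q v * ⁅r v, r a⁆ := by
    intro a v
    have h1 : q (a * v) = r a * r v * (r a * r v) :=
      hwd _ (hrL _) _ (L.mul_mem (hrL a) (hrL v)) (by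
        rw [hr, QuotientGroup.mk_mul, hr, hr]; rfl)
    have hc : ⁅r v, r a⁆ ∈ E := by
      rw [← QuotientGroup.eq_one_iff]
      have : ((⁅r v, r a⁆ : P) : P ⧸ E) = ⁅((r v : P) : P ⧸ E), ((r a : P) : P ⧸ E)⁆ :=
        map_commutatorElement (QuotientGroup.mk' E) _ _
      rw [this, commutatorElement_eq_one_iff_mul_comm, hr, hr, ← Subgroup.coe_mul, hcomm]
      rfl
    rw [h1]
    show _ = r a * r a * (r v * r v) * _
    rw [show r a * r a * (r v * r v) * ⁅r v, r a⁆ = r a * r a * (r v * r v * ⁅r v, r a⁆) by group,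
      (hcen' (L.mul_mem (hrL v) (hrL v)) hc).eq,
      show r a * r v * (r a * r v) = r a * ((r v * r a) * r v) by group,
      show r v * r a = ⁅r v, r a⁆ * (r a * r v) by rw [commutatorElement_def]; group,
      show r a * (⁅r v, r a⁆ * (r a * r v) * r v) = (r a * ⁅r v, r a⁆) * r a * (r v * r v) by group,
      (hcen' (hrL a) hc).eq]
    rw [show ⁅r v, r a⁆ * r a * r a * (r v * r v) = ⁅r v, r a⁆ * (r a * r a) * (r v * r v) by group,
      ← (hcen' (L.mul_mem (hrL a) (hrL a)) hc).eq]
    group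
  have hbil : ∀ a v w : V, ⁅r (v * w), r a⁆ = ⁅r v, r a⁆ * ⁅r w, r a⁆ := by
    intro a v w
    obtain ⟨e, he, hre⟩ : ∃ e ∈ E, r (v * w) = r v * r w * e := by
      refine ⟨(r v * r w)⁻¹ * r (v * w), QuotientGroup.eq.1 ?_, (mul_inv_cancel_left _ _).symm⟩
      rw [QuotientGroup.mk_mul, hr, hr, hr]; rfl
    have hc : ⁅r w, r a⁆ ∈ E := by
      rw [← QuotientGroup.eq_one_iff]
      have : ((⁅r w, r a⁆ : P) : P ⧸ E) = ⁅((r w : P) : P ⧸ E), ((r a : P) : P ⧸ E)⁆ :=
        map_commutatorElement (QuotientGroup.mk' E) _ _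
      rw [this, commutatorElement_eq_one_iff_mul_comm, hr, hr, ← Subgroup.coe_mul, hcomm]
      rfl
    have hc2 : ⁅r v, r a⁆ ∈ L :=
      L.mul_mem (L.mul_mem (L.mul_mem (hrL v) (hrL a)) (L.inv_mem (hrL v))) (L.inv_mem (hrL a))
    rw [(hcen' hc2 hc).eq, hre, commutatorElement_def, commutatorElement_def, commutatorElement_def]
    calc r v * r w * e * r a * (r v * r w * e)⁻¹ * (r a)⁻¹
        = r v * r w * (e * r a * e⁻¹) * (r w)⁻¹ * (r v)⁻¹ * (r a)⁻¹ := by group
      _ = r v * r w * r a * (r w)⁻¹ * (r v)⁻¹ * (r a)⁻¹ := by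
        rw [← (hcen' (hrL a) he).eq, mul_inv_cancel_right]
      _ = r v * (r w * r a * (r w)⁻¹ * (r a)⁻¹) * (r a * (r v)⁻¹ * (r a)⁻¹) := by group
      _ = (r w * r a * (r w)⁻¹ * (r a)⁻¹) * (r v * r a * (r v)⁻¹ * (r a)⁻¹) := by
        rw [show r w * r a * (r w)⁻¹ * (r a)⁻¹ = ⁅r w, r a⁆ by rw [commutatorElement_def],
          (hcen' (hrL v) hc).eq]
        group
  -- coordinates on `E`
  have coord : ∀ e : E, e ≠ 1 → ∃ f : E → ZMod 2, (∀ u w : E, f (u * w) = f u + f w) ∧
      ∀ u : E, (f u = 0 ↔ u = 1 ∨ u = e) := by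
    intro e he
    have ho : orderOf e = 2 := orderOf_eq_prime (by rw [pow_two]; exact Subtype.ext (hE1 e e.2)) he
    have hidx : (Subgroup.zpowers e).index = 2 := by
      have := (Subgroup.zpowers e).card_mul_index
      rw [Nat.card_zpowers, ho, hE4] at this
      omega
    have hm : ∀ u : E, u ∈ Subgroup.zpowers e ↔ u = 1 ∨ u = e := fun u => by
      refine ⟨fun h => ?_, ?_⟩
      · rw [← mem_zpowers_iff_mem_range_orderOf.symm.trans Iff.rfl] at h
        simp only [ho, Finset.mem_image, Finset.mem_range] at h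
        obtain ⟨i, hi, rfl⟩ := h
        interval_cases i <;> simp
      · rintro (rfl | rfl)
        · exact one_mem _
        · exact Subgroup.mem_zpowers _
    refine ⟨fun u => if u ∈ Subgroup.zpowers e then 0 else 1, fun u w => ?_, fun u => ?_⟩
    · simp only [Subgroup.mul_mem_iff_of_index_two hidx]
      by_cases hu : u ∈ Subgroup.zpowers e <;> by_cases hw : w ∈ Subgroup.zpowers e <;>
        simp [hu, hw, add_self_eq]
    · rw [← hm]
      by_cases hu : u ∈ Subgroup.zpowers e <;> simp [hu]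
  obtain ⟨e1, he1⟩ : ∃ e : E, e ≠ 1 := by
    haveI : Nontrivial E := Finite.one_lt_card_iff_nontrivial.1 (by omega)
    exact exists_ne 1
  obtain ⟨e2, he2, he21⟩ : ∃ e : E, e ≠ 1 ∧ e ≠ e1 := by
    by_contra! hall
    have : Nat.card E ≤ Nat.card (Bool) := Nat.card_le_card_of_injective (fun e : E => decide (e = e1))
      fun u w h => by
        simp only [decide_eq_decide] at h
        by_cases hu : u = e1
        · exact hu.trans (h.1 hu).symm
        · have hw : w ≠ e1 := fun hw => hu (h.2 hw)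
          have hu1 : u = 1 := by_contra fun h1 => hu (hall u h1)
          have hw1 : w = 1 := by_contra fun h1 => hw (hall w h1)
          rw [hu1, hw1]
    simp at this
    omega
  obtain ⟨f1, hf1, hz1⟩ := coord e1 he1
  obtain ⟨f2, hf2, hz2⟩ := coord e2 he2
  have hdeg : ∀ f : E → ZMod 2, (∀ u w : E, f (u * w) = f u + f w) →
      Deg 2 fun v : V => f ⟨q v, hqE v⟩ + 1 := by
    intro f hf a b c v
    have hbE : ∀ w : V, ⁅r w, r a⁆ ∈ E := fun w => by
      have := hqmul a w
      have h2 : ⁅r w, r a⁆ = (q a * q w)⁻¹ * q (a * w) := by rw [this, inv_mul_cancel_left]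
      rw [h2]
      exact E.mul_mem (E.inv_mem (E.mul_mem (hqE a) (hqE w))) (hqE _)
    have h1 : ∀ w : V, f ⟨q (a * w), hqE _⟩ =
        f ⟨q a, hqE a⟩ + f ⟨q w, hqE w⟩ + f ⟨_, hbE w⟩ := fun w => by
      rw [← hf, ← hf]
      exact congrArg f (Subtype.ext (hqmul a w))
    have h2 : ∀ w : V, f ⟨_, hbE (b * w)⟩ = f ⟨_, hbE b⟩ + f ⟨_, hbE w⟩ := fun w => by
      rw [← hf]
      exact congrArg f (Subtype.ext (hbil a b w))
    show f ⟨q (a * (b * (c * v))), _⟩ + 1 + (f ⟨q (b * (c * v)), _⟩ + 1) +
        (f ⟨q (a * (c * v)), _⟩ + 1 + (f ⟨q (c * v), _⟩ + 1)) =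
      f ⟨q (a * (b * v)), _⟩ + 1 + (f ⟨q (b * v), _⟩ + 1) +
        (f ⟨q (a * v), _⟩ + 1 + (f ⟨q v, _⟩ + 1))
    rw [h1, h1, h1, h1, h2, h2]
    linear_combination add_self_eq (f ⟨q (b * (c * v)), hqE _⟩) + add_self_eq (f ⟨_, hbE (c * v)⟩)
      + add_self_eq (f ⟨q (c * v), hqE _⟩) - add_self_eq (f ⟨q (b * v), hqE _⟩)
      - add_self_eq (f ⟨_, hbE v⟩) - add_self_eq (f ⟨q v, hqE v⟩)
  have hg := sum_eq_zero hcomm hVp 4 _ (deg_mul hcomm 4 2 2 rfl (hdeg f1 hf1) (hdeg f2 hf2)) ⊤
    (by rw [Subgroup.card_top]; exact hVc)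
  have hind : ∀ v : V, (f1 ⟨q v, hqE v⟩ + 1) * (f2 ⟨q v, hqE v⟩ + 1) =
      if q v = 1 then 1 else 0 := by
    intro v
    split_ifs with h
    · rw [(hz1 _).2 (Or.inl (Subtype.ext h)), (hz2 _).2 (Or.inl (Subtype.ext h)), zero_add, mul_one]
    · rcases zero_or_succ (f1 ⟨q v, hqE v⟩) with h1 | h1
      · rcases zero_or_succ (f2 ⟨q v, hqE v⟩) with h2 | h2
        · exfalso
          rcases (hz1 _).1 h1 with h1 | h1
          · exact h (congrArg Subtype.val h1)
          · rcases (hz2 _).1 h2 with h2 | h2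
            · exact h (congrArg Subtype.val h2)
            · exact he21 (h2.symm.trans h1)
        · rw [h2, mul_zero]
      · rw [h1, zero_mul]
  simp only [Subgroup.mem_top, Finset.filter_true, hind] at hg
  rw [Finset.sum_boole, ZMod.natCast_eq_zero_iff] at hg
  -- the invariant set of cosets
  let T : Set (P ⧸ E) := {c | ∃ x ∈ L, x ∉ E ∧ x * x = 1 ∧ (x : P ⧸ E) = c}
  haveI : Fintype T := Fintype.ofFinite _
  have hr1 : q 1 = 1 := by
    have := hqmul 1 1
    rw [commutatorElement_self, mul_one, mul_one] at this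
    exact mul_eq_left.1 this.symm
  have hTodd : ¬ 2 ∣ Nat.card T := by
    have hval : ∀ c ∈ T, ∃ v : V, v ≠ 1 ∧ q v = 1 ∧ (v : P ⧸ E) = c := by
      rintro c ⟨x, hxL, hxE, hx1, rfl⟩
      refine ⟨⟨x, x, hxL, rfl⟩, fun h => hxE ((QuotientGroup.eq_one_iff x).1 (congrArg Subtype.val h)),
        ?_, rfl⟩
      exact (hwd _ (hrL _) x hxL (hr _)).trans hx1
    have heq : Nat.card T = Nat.card {v : V // q v = 1 ∧ v ≠ 1} := by
      refine Nat.card_congr
        { toFun := fun c => ⟨⟨c.1, ?_⟩, ?_⟩
          invFun := fun v => ⟨(v.1 : P ⧸ E), r v.1, hrL _, ?_, v.2.1, hr _⟩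
          left_inv := fun c => rfl
          right_inv := fun v => rfl }
      · obtain ⟨v, -, -, hvc⟩ := hval c.1 c.2
        exact hvc ▸ v.2
      · obtain ⟨v, h1, h2, hvc⟩ := hval c.1 c.2
        simp only [← hvc]
        exact ⟨h2, h1⟩
      · intro h
        apply v.2.2
        apply Subtype.ext
        rw [← hr]
        exact (QuotientGroup.eq_one_iff _).2 h
    rw [heq, Nat.card_eq_fintype_card, Fintype.card_subtype]
    have : Finset.univ.filter (fun v : V => q v = 1 ∧ v ≠ 1) =
        (Finset.univ.filter (fun v : V => q v = 1)).erase 1 := by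
      ext v; simp [and_comm]
    rw [this, Finset.card_erase_of_mem (by simp [hr1])]
    have hpos : 0 < (Finset.univ.filter (fun v : V => q v = 1)).card :=
      Finset.card_pos.2 ⟨1, by simp [hr1]⟩
    omega
  letI act : MulAction P T :=
    { smul := fun g c => ⟨(g : P ⧸ E) * c * (g : P ⧸ E)⁻¹, by
        obtain ⟨x, hxL, hxE, hx1, hxc⟩ := c.2
        refine ⟨g * x * g⁻¹, hLn.conj_mem x hxL g, fun h => hxE ?_, ?_, ?_⟩
        · simpa [mul_assoc] using hEn.conj_mem _ h g⁻¹
        · rw [show g * x * g⁻¹ * (g * x * g⁻¹) = g * (x * x) * g⁻¹ by group, hx1, mul_one,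
            mul_inv_cancel]
        · rw [QuotientGroup.mk_mul, QuotientGroup.mk_mul, QuotientGroup.mk_inv, hxc]⟩
      one_smul := fun c => Subtype.ext (show ((1 : P) : P ⧸ E) * _ * _ = _ by simp)
      mul_smul := fun g h c => Subtype.ext (show ((g * h : P) : P ⧸ E) * _ * _ = _ by
        rw [QuotientGroup.mk_mul, mul_inv_rev]
        show _ = (g : P ⧸ E) * ((h : P ⧸ E) * c * (h : P ⧸ E)⁻¹) * (g : P ⧸ E)⁻¹
        group) }
  have hmod := hP.card_modEq_card_fixedPoints T
  obtain ⟨⟨c, hcfix⟩⟩ : Nonempty (MulAction.fixedPoints P T) := by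
    refine (Nat.card_pos_iff.1 (Nat.pos_of_ne_zero fun h0 => hTodd ?_)).1
    rw [h0] at hmod
    exact Nat.modEq_zero_iff_dvd.1 hmod
  obtain ⟨x, hxL, hxE, hx1, hxc⟩ := c.2
  refine ⟨x, hxL, hxE, hx1, fun g => ?_⟩
  rw [← QuotientGroup.eq_one_iff, QuotientGroup.mk_mul, QuotientGroup.mk_mul, QuotientGroup.mk_mul,
    QuotientGroup.mk_inv, QuotientGroup.mk_inv, hxc]
  have := congrArg Subtype.val (hcfix g)
  change (g : P ⧸ E) * (c : P ⧸ E) * (g : P ⧸ E)⁻¹ = c at this
  exact mul_inv_eq_one.2 this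

end CfsgLib.KGroups.QuadCount
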