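/-
KGroups: 2-groups in which every element of order dividing four is central, and the subgroup
generated by squares.
-/
import Mathlib
import Cfsg.Agent.Lib.TwoGroups.PBasics

set_option autoImplicit false
set_option linter.style.haveILetI false

namespace CfsgLib.KGroups.TwoCentral

variable {G : Type*} [Group G]

/-- The subgroup generated by the squares of the elements of `H`. -/
def sqG (H : Subgroup G) : Subgroup G := Subgroup.closure {g | ∃ h ∈ H, h * h = g}

theorem mul_self_mem_sqG {H : Subgroup G} {h : G} (hh : h ∈ H) : h * h ∈ sqG H :=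
  Subgroup.subset_closure ⟨h, hh, rfl⟩

theorem sqG_le (H : Subgroup G) : sqG H ≤ H :=
  (Subgroup.closure_le _).2 fun _ ⟨h, hh, e⟩ => e ▸ H.mul_mem hh hh

theorem sqG_mono {H K : Subgroup G} (hHK : H ≤ K) : sqG H ≤ sqG K :=
  Subgroup.closure_mono fun _ ⟨h, hh, e⟩ => ⟨h, hHK hh, e⟩

theorem map_sqG {G' : Type*} [Group G'] (f : G →* G') (H : Subgroup G) :
    (sqG H).map f = sqG (H.map f) := by
  rw [sqG, MonoidHom.map_closure]
  congr 1
  ext g
  constructor
  · rintro ⟨_, ⟨h, hh, rfl⟩, rfl⟩
    exact ⟨f h, ⟨h, hh, rfl⟩, (map_mul f h h).symm⟩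
  · rintro ⟨_, ⟨h, hh, rfl⟩, rfl⟩
    exact ⟨h * h, ⟨h, hh, rfl⟩, map_mul f h h⟩

theorem sqG_eq_map_subtype (H : Subgroup G) :
    sqG H = (sqG (⊤ : Subgroup H)).map H.subtype := by
  rw [map_sqG, ← MonoidHom.range_eq_map, Subgroup.range_subtype]

/-- In a finite 2-group the squares lie in the Frattini subgroup. -/
theorem eq_top_of_sup_sqG [Finite G] (hG : IsPGroup 2 G) {K : Subgroup G}
    (h : K ⊔ sqG ⊤ = ⊤) : K = ⊤ := by
  haveI : Fact (Nat.Prime 2) := ⟨Nat.prime_two⟩
  by_contra hne
  obtain ⟨M, hM, hKM⟩ := (eq_top_or_exists_le_coatom K).resolve_left hne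
  have hidx : M.index = 2 := CfsgLib.TwoGroups.index_eq_of_isCoatom hG hM
  have : sqG ⊤ ≤ M := (Subgroup.closure_le _).2 fun g ⟨h, _, e⟩ =>
    e ▸ Subgroup.mul_self_mem_of_index_two hidx h
  exact hM.1 (top_le_iff.1 (h.ge.trans (sup_le hKM this)))

/-- Every element of order dividing four is central. -/
def OmegaTwoCentral (D : Type*) [Group D] : Prop := ∀ c : D, c ^ 4 = 1 → c ∈ Subgroup.center D

section

universe u

variable {D : Type u} [Group D]

theorem commute_of (hD : OmegaTwoCentral D) {c : D} (hc : c ^ 4 = 1) (g : D) : Commute c g :=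
  (Subgroup.mem_center_iff.1 (hD c hc) g).symm

theorem pow_four_of_sq {c : D} (hc : c * c = 1) : c ^ 4 = 1 := by
  rw [show (4 : ℕ) = 2 * 2 by norm_num, pow_mul, pow_two c, hc, one_pow]

/-- The subgroup of elements of order at most two. -/
def omega1 (hD : OmegaTwoCentral D) : Subgroup D where
  carrier := {c | c * c = 1}
  one_mem' := mul_one 1
  mul_mem' := fun {a b} ha hb => by
    show a * b * (a * b) = 1
    rw [show a * b * (a * b) = a * (b * a) * b by group,
      ← (commute_of hD (pow_four_of_sq ha) b).eq, show a * (a * b) * b = a * a * (b * b) by group,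
      ha, hb, one_mul]
  inv_mem' := fun {a} ha => by
    show a⁻¹ * a⁻¹ = 1
    rw [← mul_inv_rev, ha, inv_one]

theorem mem_omega1 {hD : OmegaTwoCentral D} {c : D} : c ∈ omega1 hD ↔ c * c = 1 := Iff.rfl

theorem omega1_normal (hD : OmegaTwoCentral D) : (omega1 hD).Normal := ⟨fun n hn g => by
  rw [← (commute_of hD (pow_four_of_sq hn) g).eq, mul_inv_cancel_right]
  exact hn⟩

/-- A nontrivial element has a power of order two. -/
theorem exists_sq_eq_one_ne_one (hP : IsPGroup 2 D) {x : D} (hx : x ≠ 1) :
    ∃ j : ℕ, x ^ j ≠ 1 ∧ x ^ j * x ^ j = 1 := by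
  obtain ⟨k, hk⟩ := hP x
  induction k with
  | zero => exact absurd (by simpa using hk) hx
  | succ k ih =>
    by_cases h : x ^ 2 ^ k = 1
    · exact ih h
    · exact ⟨2 ^ k, h, by rw [← pow_add, ← mul_two, ← pow_succ, hk]⟩

/-- An element which is inverted by some element has order at most two. -/
theorem sq_eq_one_of_inverted (hD : OmegaTwoCentral D) (hP : IsPGroup 2 D) {g u : D}
    (h : g * u * g⁻¹ = u⁻¹) : u * u = 1 := by
  by_contra hne
  obtain ⟨j, hj1, hj2⟩ := exists_sq_eq_one_ne_one hP hne
  have h4 : (u ^ j) ^ 4 = 1 := by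
    rw [show (4 : ℕ) = 2 + 2 by norm_num, pow_add, pow_two,
      ← (Commute.refl u).mul_pow, hj2]
  have hc := (commute_of hD h4 g).eq
  have h' : g * u ^ j * g⁻¹ = (u ^ j)⁻¹ := by rw [← conj_pow, h, inv_pow]
  rw [← hc, mul_inv_cancel_right] at h'
  refine hj1 ?_
  rw [(Commute.refl u).mul_pow]
  exact mul_eq_one_iff_eq_inv.2 h'

/-- Two elements with the same square differ by an element of order at most two. -/
theorem sq_inj (hD : OmegaTwoCentral D) (hP : IsPGroup 2 D) {a b : D} (h : a * a = b * b) :
    a * b⁻¹ * (a * b⁻¹) = 1 := by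
  refine sq_eq_one_of_inverted hD hP (g := a⁻¹) ?_
  rw [inv_inv, mul_inv_rev, inv_inv, show a⁻¹ * (a * b⁻¹) * a = b⁻¹ * a by group, eq_mul_inv_iff_mul_eq,
    mul_assoc, h, ← mul_assoc, inv_mul_cancel, one_mul]

theorem omegaTwoCentral_quotient (hD : OmegaTwoCentral D) (hP : IsPGroup 2 D)
    [(omega1 hD).Normal] : OmegaTwoCentral (D ⧸ omega1 hD) := by
  intro c hc
  induction c using QuotientGroup.induction_on with
  | H x =>
    rw [← QuotientGroup.mk_pow, QuotientGroup.eq_one_iff, mem_omega1] at hc
    have h4 : (x * x) ^ 4 = 1 := by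
      rw [← pow_two, ← pow_mul, show 2 * 4 = 4 + 4 by norm_num, pow_add, hc]
    refine Subgroup.mem_center_iff.2 fun g => ?_
    induction g using QuotientGroup.induction_on with
    | H y =>
      have h2 : y * x * y⁻¹ * (y * x * y⁻¹) = x * x := by
        rw [show y * x * y⁻¹ * (y * x * y⁻¹) = y * (x * x) * y⁻¹ by group,
          ← (commute_of hD h4 y).eq, mul_inv_cancel_right]
      have h3 : y * x * y⁻¹ * x⁻¹ ∈ omega1 hD := sq_inj hD hP h2
      rw [← QuotientGroup.eq_one_iff] at h3
      rw [← mul_inv_eq_one, ← h3]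
      simp only [QuotientGroup.mk_mul, QuotientGroup.mk_inv, mul_inv_rev, mul_assoc]

/-- The square of a representative of an involution of the quotient. -/
theorem sq_out_mem (hD : OmegaTwoCentral D) [(omega1 hD).Normal] (q : D ⧸ omega1 hD)
    (hq : q * q = 1) : q.out * q.out ∈ omega1 hD := by
  rw [← QuotientGroup.eq_one_iff, QuotientGroup.mk_mul, QuotientGroup.out_eq', hq]

theorem sq_out_injective (hD : OmegaTwoCentral D) (hP : IsPGroup 2 D) [(omega1 hD).Normal]
    {q q' : D ⧸ omega1 hD} (h : q.out * q.out = q'.out * q'.out) : q = q' := by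
  have h3 : q.out * q'.out⁻¹ ∈ omega1 hD := sq_inj hD hP h
  rw [← QuotientGroup.eq_one_iff, QuotientGroup.mk_mul, QuotientGroup.mk_inv,
    QuotientGroup.out_eq', QuotientGroup.out_eq'] at h3
  exact mul_inv_eq_one.1 h3

end

universe u

/-- Equal `2 ^ j`-th powers give a quotient killed by `2 ^ j`. -/
theorem pow_inj (j : ℕ) : ∀ {D : Type u} [Group D], OmegaTwoCentral D → IsPGroup 2 D →
    ∀ a b : D, a ^ 2 ^ j = b ^ 2 ^ j → (a * b⁻¹) ^ 2 ^ j = 1 := by
  induction j with
  | zero =>
    intro D _ _ _ a b h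
    simp at h
    simp [h]
  | succ j ih =>
    intro D _ hD hP a b h
    haveI := omega1_normal hD
    have h1 : a ^ 2 ^ j * (b ^ 2 ^ j)⁻¹ ∈ omega1 hD := sq_inj hD hP (by
      rw [← pow_add, ← pow_add, ← two_mul, ← pow_succ', h])
    rw [← QuotientGroup.eq_one_iff, QuotientGroup.mk_mul, QuotientGroup.mk_inv, mul_inv_eq_one,
      QuotientGroup.mk_pow, QuotientGroup.mk_pow] at h1
    have h2 := ih (omegaTwoCentral_quotient hD hP) (hP.to_quotient _) _ _ h1
    rw [← QuotientGroup.mk_inv, ← QuotientGroup.mk_mul, ← QuotientGroup.mk_pow,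
      QuotientGroup.eq_one_iff, mem_omega1] at h2
    rw [pow_succ, mul_two, pow_add, h2]

/-- `|D : ⟨squares⟩|` is at most the number of solutions of `c ^ 2 = 1`. -/
theorem card_le_mul_sqG : ∀ (n : ℕ) {D : Type u} [Group D] [Finite D] (hD : OmegaTwoCentral D),
    IsPGroup 2 D → Nat.card D ≤ n →
      Nat.card D ≤ Nat.card (sqG (⊤ : Subgroup D)) * Nat.card (omega1 hD) := by
  intro n
  induction n with
  | zero => intro D _ _ _ _ hn; exact absurd hn (by have := Nat.card_pos (α := D); omega)
  | succ n ih =>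
    intro D _ _ hD hP hn
    haveI := omega1_normal hD
    rcases subsingleton_or_nontrivial D with hsub | hnt
    · have := Nat.card_pos (α := sqG (⊤ : Subgroup D))
      have := Nat.card_pos (α := omega1 hD)
      rw [Nat.card_of_subsingleton (1 : D)]
      exact Nat.mul_pos ‹_› ‹_›
    obtain ⟨x, hx⟩ := exists_ne (1 : D)
    obtain ⟨j, hj1, hj2⟩ := exists_sq_eq_one_ne_one hP hx
    have hE : 2 ≤ Nat.card (omega1 hD) := by
      haveI : Nontrivial (omega1 hD) := ⟨⟨x ^ j, hj2⟩, 1, fun h => hj1 (congrArg Subtype.val h)⟩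
      exact Finite.one_lt_card
    have hmul := (omega1 hD).card_mul_index
    rw [Subgroup.index_eq_card] at hmul
    have hQ : Nat.card (D ⧸ omega1 hD) ≤ n := by
      have := Nat.mul_le_mul_right (Nat.card (D ⧸ omega1 hD)) hE
      omega
    have h1 := ih (omegaTwoCentral_quotient hD hP) (hP.to_quotient _) hQ
    -- the image of the squares
    set S := sqG (⊤ : Subgroup D) with hS
    have himg : sqG (⊤ : Subgroup (D ⧸ omega1 hD)) = S.map (QuotientGroup.mk' (omega1 hD)) := by
      rw [hS, map_sqG, Subgroup.map_top_of_surjective _ (QuotientGroup.mk'_surjective _)]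
    have h2 : Nat.card (omega1 (omegaTwoCentral_quotient hD hP)) ≤
        Nat.card (((QuotientGroup.mk' (omega1 hD)).comp S.subtype).ker) := by
      refine Nat.card_le_card_of_injective (fun q => ⟨⟨q.1.out * q.1.out,
        mul_self_mem_sqG (Subgroup.mem_top _)⟩, ?_⟩) ?_
      · exact (QuotientGroup.eq_one_iff _).2 (sq_out_mem hD q.1 q.2)
      · intro q q' h
        have h' := congrArg (fun z : ((QuotientGroup.mk' (omega1 hD)).comp S.subtype).ker =>
          ((z : S) : D)) h
        exact Subtype.ext (sq_out_injective hD hP h')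
    have h3 : Nat.card (sqG (⊤ : Subgroup (D ⧸ omega1 hD))) *
        Nat.card (((QuotientGroup.mk' (omega1 hD)).comp S.subtype).ker) = Nat.card S := by
      have := ((QuotientGroup.mk' (omega1 hD)).comp S.subtype).ker.index_mul_card
      rw [Subgroup.index_ker, MonoidHom.range_comp, Subgroup.range_subtype, ← himg] at this
      exact this
    calc Nat.card D = Nat.card (omega1 hD) * Nat.card (D ⧸ omega1 hD) := hmul.symm
      _ ≤ Nat.card (omega1 hD) * Nat.card S := by
        refine Nat.mul_le_mul_left _ (h1.trans ?_)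
        rw [← h3]
        exact Nat.mul_le_mul_left _ h2
      _ = _ := mul_comm _ _

/-- With at most four solutions of `c ^ 2 = 1`, every product of squares is a square. -/
theorem exists_sq_eq : ∀ (n : ℕ) {D : Type u} [Group D] [Finite D] (hD : OmegaTwoCentral D),
    IsPGroup 2 D → Nat.card D ≤ n → Nat.card (omega1 hD) ≤ 4 →
      ∀ s ∈ sqG (⊤ : Subgroup D), ∃ h : D, h * h = s := by
  intro n
  induction n with
  | zero => intro D _ _ _ _ hn; exact absurd hn (by have := Nat.card_pos (α := D); omega)
  | succ n ih =>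
    intro D _ _ hD hP hn h4 s hs
    haveI := omega1_normal hD
    rcases subsingleton_or_nontrivial D with hsub | hnt
    · exact ⟨1, Subsingleton.elim _ _⟩
    obtain ⟨x, hx⟩ := exists_ne (1 : D)
    obtain ⟨j, hj1, hj2⟩ := exists_sq_eq_one_ne_one hP hx
    have hE : 2 ≤ Nat.card (omega1 hD) := by
      haveI : Nontrivial (omega1 hD) := ⟨⟨x ^ j, hj2⟩, 1, fun h => hj1 (congrArg Subtype.val h)⟩
      exact Finite.one_lt_card
    have hmul := (omega1 hD).card_mul_index
    rw [Subgroup.index_eq_card] at hmul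
    have hQ : Nat.card (D ⧸ omega1 hD) ≤ n := by
      have := Nat.mul_le_mul_right (Nat.card (D ⧸ omega1 hD)) hE
      omega
    -- squares of elements of order dividing four
    let T : Subgroup D :=
      { carrier := {e | ∃ b : D, b ^ 4 = 1 ∧ b * b = e}
        one_mem' := ⟨1, one_pow 4, mul_one 1⟩
        mul_mem' := by
          rintro _ _ ⟨b, hb, rfl⟩ ⟨c, hc, rfl⟩
          refine ⟨b * c, by rw [(commute_of hD hb c).mul_pow, hb, hc, one_mul], ?_⟩
          rw [show b * c * (b * c) = b * (c * b) * c by group, ← (commute_of hD hb c).eq]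
          group
        inv_mem' := by
          rintro _ ⟨b, hb, rfl⟩
          exact ⟨b⁻¹, by rw [inv_pow, hb, inv_one], (mul_inv_rev b b).symm⟩ }
    have hTE : T ≤ omega1 hD := by
      rintro _ ⟨b, hb, rfl⟩
      show b * b * (b * b) = 1
      rw [← pow_two, ← pow_two, ← pow_mul, hb]
    have hqT : Nat.card (omega1 (omegaTwoCentral_quotient hD hP)) ≤ Nat.card T := by
      refine Nat.card_le_card_of_injective (fun q => ⟨q.1.out * q.1.out, q.1.out, ?_, rfl⟩) ?_
      · have := sq_out_mem hD q.1 q.2
        rw [mem_omega1, ← pow_two, ← pow_two, ← pow_mul] at this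
        exact this
      · intro q q' h
        exact Subtype.ext (sq_out_injective hD hP (congrArg Subtype.val h))
    by_cases hTeq : T = omega1 hD
    · have hsb : (s : D ⧸ omega1 hD) ∈ sqG (⊤ : Subgroup (D ⧸ omega1 hD)) := by
        rw [← Subgroup.map_top_of_surjective _ (QuotientGroup.mk'_surjective (omega1 hD)), ← map_sqG]
        exact ⟨s, hs, rfl⟩
      obtain ⟨hb, hhb⟩ := ih (omegaTwoCentral_quotient hD hP) (hP.to_quotient _) hQ
        ((hqT.trans (Subgroup.card_le_of_le hTE)).trans h4) _ hsb
      induction hb using QuotientGroup.induction_on with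
      | H h =>
        rw [← QuotientGroup.mk_mul, QuotientGroup.eq] at hhb
        rw [← hTeq] at hhb
        obtain ⟨b, hb4, hbe⟩ := hhb
        refine ⟨h * b, ?_⟩
        rw [show h * b * (h * b) = h * (b * h) * b by group, (commute_of hD hb4 h).eq,
          show h * (h * b) * b = h * h * (b * b) by group, hbe, mul_inv_cancel_left]
    · -- the quotient is cyclic, so `D` is abelian
      have hT2 : Nat.card T ≤ 2 := by
        have hlt : Nat.card T < Nat.card (omega1 hD) := by
          refine lt_of_le_of_ne (Subgroup.card_le_of_le hTE) fun e => hTeq ?_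
          exact Subgroup.eq_of_le_of_card_ge hTE e.ge
        obtain ⟨a, ha⟩ := IsPGroup.iff_card.1 (hP.to_subgroup T)
        by_contra hgt
        have : 2 ≤ a := by
          by_contra ha2
          interval_cases a <;> omega
        have : 2 ^ 2 ≤ 2 ^ a := Nat.pow_le_pow_right two_pos this
        omega
      set Q := D ⧸ omega1 hD
      set U := sqG (⊤ : Subgroup Q)
      have hU : Nat.card Q ≤ Nat.card U * 2 :=
        (card_le_mul_sqG _ (omegaTwoCentral_quotient hD hP) (hP.to_quotient _) le_rfl).trans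
          (Nat.mul_le_mul_left _ (hqT.trans hT2))
      have hcyc : IsCyclic Q := by
        obtain ⟨g, hg⟩ : ∃ g : Q, Subgroup.zpowers g ⊔ U = ⊤ := by
          by_cases hUt : U = ⊤
          · exact ⟨1, by simp [hUt]⟩
          obtain ⟨g, hg⟩ : ∃ g : Q, g ∉ U := by
            by_contra! hall
            exact hUt ((Subgroup.eq_top_iff' _).2 hall)
          refine ⟨g, ?_⟩
          by_contra hne
          have hlt : U < Subgroup.zpowers g ⊔ U := lt_of_le_of_ne le_sup_right fun e => hg (by
            rw [e]; exact Subgroup.mem_sup_left (Subgroup.mem_zpowers g))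
          have h1 : Nat.card U < Nat.card (Subgroup.zpowers g ⊔ U : Subgroup Q) := by
            refine lt_of_le_of_ne (Subgroup.card_le_of_le hlt.le) fun e => hlt.ne ?_
            exact Subgroup.eq_of_le_of_card_ge hlt.le e.ge
          have h2 : Nat.card (Subgroup.zpowers g ⊔ U : Subgroup Q) < Nat.card Q := by
            refine lt_of_le_of_ne (Nat.card_le_card_of_injective _ Subtype.val_injective)
              fun e => hne ?_
            exact Subgroup.eq_top_of_card_eq _ e
          obtain ⟨a, ha⟩ := Subgroup.card_dvd_of_le hlt.le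
          obtain ⟨b, hb⟩ := Subgroup.card_subgroup_dvd_card (Subgroup.zpowers g ⊔ U)
          rw [ha] at h1 h2 hb
          have ha2 : 2 ≤ a := by
            by_contra hh
            interval_cases a <;> simp at h1
          have hb2 : 2 ≤ b := by
            by_contra hh
            interval_cases b
            · rw [mul_zero] at hb; exact absurd hb Nat.card_pos.ne'
            · rw [mul_one] at hb; omega
          have h5 : Nat.card U * (a * b) ≤ Nat.card U * 2 := by
            rw [← mul_assoc, ← hb]; exact hU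
          have := Nat.le_of_mul_le_mul_left h5 Nat.card_pos
          have := Nat.mul_le_mul ha2 hb2
          omega
        refine ⟨g, fun x => ?_⟩
        show x ∈ Subgroup.zpowers g
        rw [eq_top_of_sup_sqG (hP.to_quotient _) hg]
        exact Subgroup.mem_top x
      have hcomm : ∀ a b : D, a * b = b * a := fun a b =>
        ((QuotientGroup.mk' (omega1 hD)).isMulCommutative_of_isCyclic_of_ker_le_center
          (by
            rw [QuotientGroup.ker_mk']
            exact fun e he => hD e (pow_four_of_sq he))).is_comm.comm a b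
      refine Subgroup.closure_induction (p := fun g _ => ∃ h : D, h * h = g) ?_ ⟨1, mul_one 1⟩ ?_ ?_ hs
      · rintro g ⟨h, -, rfl⟩; exact ⟨h, rfl⟩
      · rintro _ _ _ _ ⟨a, rfl⟩ ⟨b, rfl⟩
        exact ⟨a * b, by rw [show a * b * (a * b) = a * (b * a) * b by group, hcomm b a]; group⟩
      · rintro _ _ ⟨a, rfl⟩
        exact ⟨a⁻¹, (mul_inv_rev a a).symm⟩

end CfsgLib.KGroups.TwoCentral
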