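/-
KGroups: MacWilliams' four generator theorem. In a 2-group without normal elementary abelian subgroups
of order eight every subgroup is generated by four elements.
-/
import Cfsg.Agent.Lib.KGroups.TwoCentral
import Cfsg.Agent.Lib.KGroups.QuadCount
import Cfsg.Agent.Lib.PGroups.NormalAbelian
import Cfsg.Agent.Lib.NormalPComplement.Replacement
import Cfsg.Agent.Lib.TwoGroups.NormalAbelian

set_option autoImplicit false
set_option linter.style.haveILetI false

namespace CfsgLib.KGroups.FourGenerator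

open CfsgLib.KGroups.TwoCentral

/-- Bound on a finite group by the number of values of a function and the fibres. -/
theorem card_le_of_fibres {G W : Type*} [Group G] [Finite G] [Finite W] (X Y : Subgroup G)
    (f : X → W) (hf : ∀ a b : X, f a = f b → (a : G)⁻¹ * b ∈ Y) :
    Nat.card X ≤ Nat.card W * Nat.card Y := by
  classical
  rw [← Nat.card_prod]
  let rep : W → X := fun w => if h : ∃ a, f a = w then h.choose else 1
  have hrep : ∀ a, f (rep (f a)) = f a := fun a => by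
    have h : ∃ b, f b = f a := ⟨a, rfl⟩
    simp only [rep, dif_pos h]
    exact h.choose_spec
  refine Nat.card_le_card_of_injective
    (fun a => (f a, (⟨((rep (f a) : X) : G)⁻¹ * a, hf _ _ (hrep a)⟩ : Y))) fun a b h => ?_
  simp only [Prod.mk.injEq, Subtype.mk.injEq] at h
  have h2 := h.2
  rw [h.1] at h2
  exact Subtype.ext (mul_left_cancel h2)

/-- A maximal normal abelian subgroup of exponent four in a 2-group without normal elementary abelian
subgroups of order eight. -/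
structure Setting (P : Type*) [Group P] [Finite P] where
  hP : IsPGroup 2 P
  hno : ∀ A : Subgroup P, A.Normal → IsMulCommutative A → (∀ a ∈ A, a ^ 2 = 1) → Nat.card A ≤ 4
  B : Subgroup P
  hBn : B.Normal
  hBc : IsMulCommutative B
  hB4 : ∀ b ∈ B, b ^ 4 = 1
  hBmax : ∀ B' : Subgroup P, B'.Normal → IsMulCommutative B' → (∀ b ∈ B', b ^ 4 = 1) → B ≤ B' →
    B' = B

variable {P : Type*} [Group P] [Finite P]

theorem exists_setting (hP : IsPGroup 2 P)
    (hno : ∀ A : Subgroup P, A.Normal → IsMulCommutative A → (∀ a ∈ A, a ^ 2 = 1) →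
      Nat.card A ≤ 4) : Nonempty (Setting P) := by
  obtain ⟨B, hB⟩ := Set.Finite.exists_maximal
    (s := {B : Subgroup P | B.Normal ∧ IsMulCommutative B ∧ ∀ b ∈ B, b ^ 4 = 1}) (Set.toFinite _)
    ⟨⊥, inferInstance, ⟨⟨fun a b => Subsingleton.elim _ _⟩⟩, fun b hb => by
      rw [Subgroup.mem_bot.1 hb, one_pow]⟩
  exact ⟨⟨hP, hno, B, hB.1.1, hB.1.2.1, hB.1.2.2,
    fun B' h1 h2 h3 h4 => le_antisymm (hB.2 ⟨h1, h2, h3⟩ h4) h4⟩⟩

namespace Setting

variable (S : Setting P)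

theorem comm_B {a b : P} (ha : a ∈ S.B) (hb : b ∈ S.B) : Commute a b :=
  congrArg Subtype.val (S.hBc.is_comm.comm ⟨a, ha⟩ ⟨b, hb⟩)

/-- The elements of `B` of order at most two. -/
def E : Subgroup P where
  carrier := {b | b ∈ S.B ∧ b * b = 1}
  one_mem' := ⟨one_mem _, mul_one 1⟩
  mul_mem' := fun {a b} ha hb => ⟨S.B.mul_mem ha.1 hb.1, by
    rw [show a * b * (a * b) = a * (b * a) * b by group, ← (S.comm_B ha.1 hb.1).eq,
      show a * (a * b) * b = a * a * (b * b) by group, ha.2, hb.2, mul_one]⟩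
  inv_mem' := fun {a} ha => ⟨S.B.inv_mem ha.1, by rw [← mul_inv_rev, ha.2, inv_one]⟩

theorem E_normal : S.E.Normal := ⟨fun n hn g => ⟨S.hBn.conj_mem n hn.1 g, by
  rw [show g * n * g⁻¹ * (g * n * g⁻¹) = g * (n * n) * g⁻¹ by group, hn.2, mul_one, mul_inv_cancel]⟩⟩

theorem card_E_le : Nat.card S.E ≤ 4 :=
  S.hno _ S.E_normal ⟨⟨fun a b => Subtype.ext (S.comm_B a.2.1 b.2.1).eq⟩⟩
    fun a ha => by rw [pow_two]; exact ha.2

/-- The centralizer of `B`. -/
def C : Subgroup P := Subgroup.centralizer (S.B : Set P)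

/-- The centralizer of `E`. -/
def K : Subgroup P := Subgroup.centralizer (S.E : Set P)

theorem B_le_C : S.B ≤ S.C := fun _ hb => Subgroup.mem_centralizer_iff.2 fun _ ha =>
  (S.comm_B ha hb).eq

theorem C_le_K : S.C ≤ S.K := Subgroup.centralizer_le fun _ h => h.1

theorem C_normal : S.C.Normal := by
  haveI := S.hBn
  unfold C
  infer_instance

theorem K_normal : S.K.Normal := by
  haveI := S.E_normal
  unfold K
  infer_instance

theorem commute_C {c b : P} (hc : c ∈ S.C) (hb : b ∈ S.B) : Commute c b :=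
  (Subgroup.mem_centralizer_iff.1 hc b hb).symm

theorem commute_K {x e : P} (hx : x ∈ S.K) (he : e ∈ S.E) : Commute x e :=
  (Subgroup.mem_centralizer_iff.1 hx e he).symm

theorem mem_B_of_pow_four {c : P} (hc : c ∈ S.C) (h4 : c ^ 4 = 1) : c ∈ S.B := by
  haveI := S.hBn
  haveI : Fact (Nat.Prime 2) := ⟨Nat.prime_two⟩
  exact CfsgLib.PGroups.mem_of_maximal_exponent S.hP 2 (by norm_num) S.B S.hBc S.hB4
    (fun B' h1 h2 h3 h4 => S.hBmax B' h1 h2 h3 h4) hc h4

theorem mem_E_of_sq {c : P} (hc : c ∈ S.C) (h : c * c = 1) : c ∈ S.E :=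
  ⟨S.mem_B_of_pow_four hc (by rw [show (4 : ℕ) = 2 * 2 by norm_num, pow_mul, pow_two c, h, one_pow]),
    h⟩

theorem sq_mem_E {b : P} (hb : b ∈ S.B) : b * b ∈ S.E :=
  ⟨S.B.mul_mem hb hb, by rw [← pow_two, ← pow_two, ← pow_mul]; exact S.hB4 b hb⟩

theorem omegaTwoCentral {H : Subgroup P} (hH : H ≤ S.C) : OmegaTwoCentral H := by
  intro c hc
  refine Subgroup.mem_center_iff.2 fun g => Subtype.ext ?_
  have hcB : (c : P) ∈ S.B := S.mem_B_of_pow_four (hH c.2) (by
    simpa using congrArg Subtype.val hc)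
  exact (S.commute_C (hH g.2) hcB).eq

theorem card_omega1_le {H : Subgroup P} (hH : H ≤ S.C) :
    Nat.card (omega1 (S.omegaTwoCentral hH)) ≤ Nat.card S.E :=
  Nat.card_le_card_of_injective
    (fun c => ⟨((c : H) : P), S.mem_E_of_sq (hH (c : H).2) (congrArg Subtype.val c.2)⟩)
    fun c c' h => Subtype.ext (Subtype.ext (congrArg (fun e : S.E => (e : P)) h))

theorem card_le_sqG {H : Subgroup P} (hH : H ≤ S.C) :
    Nat.card H ≤ Nat.card (sqG H) * Nat.card S.E := by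
  refine (card_le_mul_sqG _ (S.omegaTwoCentral hH) (S.hP.to_subgroup H) le_rfl).trans
    (Nat.mul_le_mul ?_ (S.card_omega1_le hH))
  rw [sqG_eq_map_subtype H, Subgroup.card_map_of_injective H.subtype_injective]

theorem exists_sq {H : Subgroup P} (hH : H ≤ S.C) {s : P} (hs : s ∈ sqG H) :
    ∃ h ∈ H, h * h = s := by
  rw [sqG_eq_map_subtype H] at hs
  obtain ⟨u, hu, rfl⟩ := hs
  obtain ⟨h, hh⟩ := exists_sq_eq _ (S.omegaTwoCentral hH) (S.hP.to_subgroup H) le_rfl
    ((S.card_omega1_le hH).trans S.card_E_le) u hu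
  exact ⟨h, h.2, congrArg Subtype.val hh⟩

theorem pow_inj_C {a b : P} (ha : a ∈ S.C) (hb : b ∈ S.C) {j : ℕ} (h : a ^ 2 ^ j = b ^ 2 ^ j) :
    (a * b⁻¹) ^ 2 ^ j = 1 := by
  have := pow_inj j (S.omegaTwoCentral (le_refl S.C)) (S.hP.to_subgroup _) ⟨a, ha⟩ ⟨b, hb⟩
    (Subtype.ext (by simpa using h))
  simpa using congrArg Subtype.val this

/-- The commutator of `x` and `b`. -/
def δ (x b : P) : P := x * b * x⁻¹ * b⁻¹

theorem δ_mem {x b : P} (hx : x ∈ S.K) (hb : b ∈ S.B) : δ x b ∈ S.E := by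
  have hcb : x * b * x⁻¹ ∈ S.B := S.hBn.conj_mem b hb x
  refine ⟨S.B.mul_mem hcb (S.B.inv_mem hb), ?_⟩
  unfold δ
  rw [show x * b * x⁻¹ * b⁻¹ * (x * b * x⁻¹ * b⁻¹) =
      x * b * x⁻¹ * (b⁻¹ * (x * b * x⁻¹)) * b⁻¹ by group,
    ← (S.comm_B hcb (S.B.inv_mem hb)).eq]
  rw [show x * b * x⁻¹ * (x * b * x⁻¹ * b⁻¹) * b⁻¹ = x * (b * b) * x⁻¹ * (b * b)⁻¹ by group,
    (S.commute_K hx (S.sq_mem_E hb)).eq]
  group

theorem conj_eq_δ_mul (x b : P) : x * b * x⁻¹ = δ x b * b := by unfold δ; group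

theorem δ_mul_right {x b c : P} (hb : b ∈ S.B) (hc : c ∈ S.B) :
    δ x (b * c) = δ x b * δ x c := by
  have h1 : x * c * x⁻¹ * c⁻¹ ∈ S.B := S.B.mul_mem (S.hBn.conj_mem c hc x) (S.B.inv_mem hc)
  calc δ x (b * c) = x * b * x⁻¹ * (x * c * x⁻¹ * c⁻¹ * b⁻¹) := by unfold δ; group
    _ = x * b * x⁻¹ * (b⁻¹ * (x * c * x⁻¹ * c⁻¹)) := by
        rw [(S.comm_B h1 (S.B.inv_mem hb)).eq]
    _ = _ := by unfold δ; group

theorem δ_of_mem_E {x e : P} (hx : x ∈ S.K) (he : e ∈ S.E) : δ x e = 1 := by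
  unfold δ
  rw [(S.commute_K hx he).eq, mul_inv_cancel_right, mul_inv_cancel]

theorem δ_of_mem_C {c b : P} (hc : c ∈ S.C) (hb : b ∈ S.B) : δ c b = 1 := by
  unfold δ
  rw [(S.commute_C hc hb).eq, mul_inv_cancel_right, mul_inv_cancel]

theorem δ_mul_left {x y b : P} (hx : x ∈ S.K) (hy : y ∈ S.K) (hb : b ∈ S.B) :
    δ (x * y) b = δ x b * δ y b := by
  have h1 := S.δ_mem hy hb
  calc δ (x * y) b = x * δ y b * x⁻¹ * δ x b := by unfold δ; group
    _ = δ y b * δ x b := by rw [(S.commute_K hx h1).eq, mul_inv_cancel_right]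
    _ = δ x b * δ y b := (S.comm_B h1.1 (S.δ_mem hx hb).1).eq

theorem δ_inv_left {x b : P} (hx : x ∈ S.K) (hb : b ∈ S.B) : δ x⁻¹ b = δ x b := by
  have h := S.δ_mul_left (S.K.inv_mem hx) hx hb
  rw [inv_mul_cancel, show δ (1 : P) b = 1 by unfold δ; group] at h
  exact (eq_inv_of_mul_eq_one_left h.symm).trans (inv_eq_of_mul_eq_one_right (S.δ_mem hx hb).2)

theorem mem_C_of_δ {x : P} (h : ∀ b ∈ S.B, δ x b = 1) : x ∈ S.C :=
  Subgroup.mem_centralizer_iff.2 fun b hb => by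
    have := h b hb
    unfold δ at this
    rw [mul_inv_eq_one, mul_inv_eq_iff_eq_mul] at this
    exact this.symm

theorem inv_mul_mem_C_of_δ {x y : P} (hx : x ∈ S.K) (hy : y ∈ S.K)
    (h : ∀ b ∈ S.B, δ x b = δ y b) : x⁻¹ * y ∈ S.C :=
  S.mem_C_of_δ fun b hb => by
    rw [S.δ_mul_left (S.K.inv_mem hx) hy hb, S.δ_inv_left hx hb, h b hb]
    exact (S.δ_mem hy hb).2

theorem sq_mem_C {x : P} (hx : x ∈ S.K) : x * x ∈ S.C :=
  S.mem_C_of_δ fun b hb => by rw [S.δ_mul_left hx hx hb]; exact (S.δ_mem hx hb).2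

theorem comm_mem_C {x y : P} (hx : x ∈ S.K) (hy : y ∈ S.K) : x * y * x⁻¹ * y⁻¹ ∈ S.C :=
  S.mem_C_of_δ fun b hb => by
    rw [S.δ_mul_left (S.K.mul_mem (S.K.mul_mem hx hy) (S.K.inv_mem hx)) (S.K.inv_mem hy) hb,
      S.δ_mul_left (S.K.mul_mem hx hy) (S.K.inv_mem hx) hb, S.δ_mul_left hx hy hb,
      S.δ_inv_left hx hb, S.δ_inv_left hy hb,
      (S.comm_B (S.δ_mem hx hb).1 (S.δ_mem hy hb).1).eq, mul_assoc (δ y b), (S.δ_mem hx hb).2,
      mul_one, (S.δ_mem hy hb).2]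

theorem δ_mul_C {x c b : P} (hx : x ∈ S.K) (hc : c ∈ S.C) (hb : b ∈ S.B) :
    δ (x * c) b = δ x b := by
  rw [S.δ_mul_left hx (S.C_le_K hc) hb, S.δ_of_mem_C hc hb, mul_one]

theorem sq_inj_B {a b : P} (ha : a ∈ S.B) (hb : b ∈ S.B) (h : a * a = b * b) :
    a⁻¹ * b ∈ S.E := by
  refine ⟨S.B.mul_mem (S.B.inv_mem ha) hb, ?_⟩
  rw [show a⁻¹ * b * (a⁻¹ * b) = a⁻¹ * (b * a⁻¹) * b by group,
    (S.comm_B hb (S.B.inv_mem ha)).eq,
    show a⁻¹ * (a⁻¹ * b) * b = (a * a)⁻¹ * (b * b) by group, h, inv_mul_cancel]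

/-! ### Good elements -/

/-- `x` induces on `B/Ω₁B` a nilpotent map with values in `⟨e⟩`, `e` a central involution. -/
structure Good (e x : P) : Prop where
  hx : x ∈ S.K
  hxC : x ∉ S.C
  he : e ∈ S.E
  hez : ∀ g : P, g * e = e * g
  hval : ∀ b ∈ S.B, δ x b = 1 ∨ δ x b = e
  hker : ∀ b ∈ S.B, b * b = 1 ∨ b * b = e → δ x b = 1
  hsurj : ∀ u ∈ S.E, ∃ b ∈ S.B, b * b = u

theorem good_mul_C {e x c : P} (h : S.Good e x) (hc : c ∈ S.C) : S.Good e (x * c) where
  hx := S.K.mul_mem h.hx (S.C_le_K hc)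
  hxC := fun hxc => h.hxC (by simpa using S.C.mul_mem hxc (S.C.inv_mem hc))
  he := h.he
  hez := h.hez
  hval := fun b hb => by rw [S.δ_mul_C h.hx hc hb]; exact h.hval b hb
  hker := fun b hb hbb => by rw [S.δ_mul_C h.hx hc hb]; exact h.hker b hb hbb
  hsurj := h.hsurj

/-- An element outside `C` centralizing `E` of order two cannot generate with `E` a normal
subgroup. -/
theorem false_of_invariant_involution (h4 : Nat.card S.E = 4) {x : P} (hx : x ∈ S.K) (hxE : x ∉ S.E)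
    (hxx : x * x = 1) (hinv : ∀ g : P, g * x * g⁻¹ * x⁻¹ ∈ S.E) : False := by
  have hcom : ∀ {a : P}, a * x ∈ S.E → Commute x a := fun {a} ha => by
    have := (S.commute_K hx ha).mul_right ((Commute.refl x).inv_right)
    rwa [mul_inv_cancel_right] at this
  let A : Subgroup P :=
    { carrier := {a | a ∈ S.E ∨ a * x ∈ S.E}
      one_mem' := Or.inl S.E.one_mem
      mul_mem' := fun {a b} ha hb => by
        show _ ∨ _
        rcases ha with ha | ha <;> rcases hb with hb | hb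
        · exact Or.inl (S.E.mul_mem ha hb)
        · exact Or.inr (by rw [mul_assoc]; exact S.E.mul_mem ha hb)
        · refine Or.inr ?_
          rw [mul_assoc, ← (S.commute_K hx hb).eq, ← mul_assoc]
          exact S.E.mul_mem ha hb
        · refine Or.inl ?_
          rw [show a * b = a * x * (x⁻¹ * b) by group, inv_eq_of_mul_eq_one_right hxx,
            (hcom hb).eq]
          exact S.E.mul_mem ha hb
      inv_mem' := fun {a} ha => by
        show _ ∨ _
        rcases ha with ha | ha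
        · exact Or.inl (S.E.inv_mem ha)
        · refine Or.inr ?_
          have e1 : a⁻¹ * x = (a * x)⁻¹ := by
            rw [mul_inv_rev, inv_eq_of_mul_eq_one_right hxx, (hcom ha).inv_right.eq]
          rw [e1]
          exact S.E.inv_mem ha }
  have hAx : x ∈ A := Or.inr (by rw [hxx]; exact S.E.one_mem)
  have hdec : ∀ a : P, a ∈ A → ∃ e ∈ S.E, a = e ∨ a = e * x := fun a ha => by
    rcases ha with ha | ha
    · exact ⟨a, ha, Or.inl rfl⟩
    · exact ⟨a * x, ha, Or.inr (by rw [mul_assoc, hxx, mul_one])⟩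
  have hAn : A.Normal := by
    refine ⟨fun a ha g => ?_⟩
    obtain ⟨e, he, rfl | rfl⟩ := hdec a ha
    · exact Or.inl (S.E_normal.conj_mem a he g)
    · rw [show g * (e * x) * g⁻¹ = g * e * g⁻¹ * (g * x * g⁻¹ * x⁻¹) * x by group]
      exact A.mul_mem (Or.inl (S.E.mul_mem (S.E_normal.conj_mem e he g) (hinv g))) hAx
  have hcE : ∀ e ∈ S.E, ∀ f ∈ S.E, Commute e f := fun e he f hf => S.comm_B he.1 hf.1
  have hAc : IsMulCommutative A := ⟨⟨fun a b => Subtype.ext (by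
    obtain ⟨e, he, hae⟩ := hdec a a.2
    obtain ⟨f, hf, hbf⟩ := hdec b b.2
    show Commute (a : P) b
    have hxe := S.commute_K hx he
    have hxf := S.commute_K hx hf
    rcases hae with h | h <;> rcases hbf with h' | h' <;> rw [h, h']
    · exact hcE e he f hf
    · exact (hcE e he f hf).mul_right hxe.symm
    · exact (hcE e he f hf).mul_left hxf
    · exact ((hcE e he f hf).mul_right hxe.symm).mul_left (hxf.mul_right (Commute.refl x)))⟩⟩
  have hAe : ∀ a ∈ A, a ^ 2 = 1 := fun a ha => by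
    obtain ⟨e, he, rfl | rfl⟩ := hdec a ha
    · rw [pow_two]; exact he.2
    · rw [(S.commute_K hx he).symm.mul_pow, pow_two, pow_two, he.2, hxx, mul_one]
  have hlt : S.E < A := lt_of_le_of_ne (fun e he => Or.inl he) fun e => hxE (e ▸ hAx)
  have h1 : Nat.card S.E < Nat.card A := by
    refine lt_of_le_of_ne (Subgroup.card_le_of_le hlt.le) fun e => hlt.ne ?_
    exact Subgroup.eq_of_le_of_card_ge hlt.le e.ge
  have := S.hno A hAn hAc hAe
  omega

/-- No good element has square in `E`. -/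
theorem good_sq_not_mem (h4 : Nat.card S.E = 4) {e x : P} (h : S.Good e x)
    (hs : x * x ∈ S.E) : False := by
  -- a coset representative of order two
  obtain ⟨b, hb, hbs⟩ : ∃ b ∈ S.B, δ x b * (b * b) = x * x := by
    obtain ⟨b, hb, hbb⟩ := h.hsurj _ hs
    rcases h.hval b hb with h1 | h1
    · exact ⟨b, hb, by rw [h1, hbb, one_mul]⟩
    · obtain ⟨b0, hb0, hb00⟩ := h.hsurj e h.he
      refine ⟨b * b0, S.B.mul_mem hb hb0, ?_⟩
      rw [S.δ_mul_right hb hb0, h1, h.hker b0 hb0 (Or.inr hb00), mul_one,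
        show b * b0 * (b * b0) = b * (b0 * b) * b0 by group, (S.comm_B hb0 hb).eq,
        show b * (b * b0) * b0 = b * b * (b0 * b0) by group, hbb, hb00,
        (S.comm_B hs.1 h.he.1).eq, ← mul_assoc, h.he.2, one_mul]
  have hgood := S.good_mul_C h (S.B_le_C hb)
  set x' := x * b
  have hxx : x' * x' = 1 := by
    calc x' * x' = x * b * x⁻¹ * (x * x) * b := by show x * b * (x * b) = _; group
      _ = δ x b * b * (x * x) * b := by rw [conj_eq_δ_mul]
      _ = δ x b * ((x * x) * b) * b := by rw [(S.comm_B hs.1 hb).eq]; group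
      _ = δ x b * (x * x) * (b * b) := by group
      _ = δ x b * ((b * b) * (x * x)) := by
          rw [mul_assoc, (S.comm_B hs.1 (S.B.mul_mem hb hb)).eq]
      _ = x * x * (x * x) := by rw [← mul_assoc, hbs]
      _ = 1 := hs.2
  refine S.false_of_invariant_involution h4 hgood.hx (fun he => hgood.hxC (S.B_le_C he.1)) hxx
    fun g => ?_
  -- the conjugates lie in the same coset
  have hgK : g * x' * g⁻¹ ∈ S.K := S.K_normal.conj_mem x' hgood.hx g
  have hEtwo : ∀ u ∈ S.E, g * u * g⁻¹ * u⁻¹ = 1 ∨ g * u * g⁻¹ * u⁻¹ = e := by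
    intro u hu
    by_cases hue : u = 1 ∨ u = e
    · rcases hue with rfl | rfl
      · exact Or.inl (by group)
      · exact Or.inl (by rw [h.hez g, mul_inv_cancel_right, mul_inv_cancel])
    push Not at hue
    by_cases he1 : e = 1
    · exfalso
      refine hgood.hxC (S.mem_C_of_δ fun b hb => ?_)
      rcases hgood.hval b hb with h | h
      · exact h
      · exact h.trans he1
    have hu1 : g * u * g⁻¹ ≠ 1 := fun hh => hue.1 (conj_eq_one_iff.1 hh)
    have hu2 : g * u * g⁻¹ ≠ e := fun hh => hue.2 (by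
      have := congrArg (fun w => g⁻¹ * w * g) hh
      simp only [mul_assoc, inv_mul_cancel_left, inv_mul_cancel, mul_one] at this
      rw [this, ← h.hez, inv_mul_cancel_left])
    have hgu := S.E_normal.conj_mem u hu g
    -- the four elements of `E`
    let f : Fin 4 → S.E := ![1, ⟨e, h.he⟩, ⟨u, hu⟩, ⟨e * u, S.E.mul_mem h.he hu⟩]
    have hinj : Function.Injective f := by
      intro i j hij
      have h' := congrArg Subtype.val hij
      fin_cases i <;> fin_cases j <;> simp [f] at h' <;>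
        first
        | rfl
        | exact absurd h' he1
        | exact absurd h'.symm he1
        | exact absurd h' hue.1
        | exact absurd h'.symm hue.1
        | exact absurd h' hue.2
        | exact absurd h'.symm hue.2
        | exact absurd (eq_of_inv_eq_inv (by rw [h, inv_eq_of_mul_eq_one_right h.he.2])) hue.2
        | (exfalso; apply hue.2; rw [← inv_eq_of_mul_eq_one_right h.he.2];
           exact eq_inv_of_mul_eq_one_right (by first | exact h' | exact h'.symm))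
    have hbij : Function.Bijective f := by
      haveI := Fintype.ofFinite S.E
      rw [Fintype.bijective_iff_injective_and_card]
      exact ⟨hinj, by rw [Fintype.card_fin, ← Nat.card_eq_fintype_card, h4]⟩
    obtain ⟨i, hi⟩ := hbij.2 ⟨_, hgu⟩
    have hi' := congrArg Subtype.val hi
    fin_cases i <;> simp [f] at hi'
    · exact absurd hi'.symm hu1
    · exact absurd hi'.symm hu2
    · exact Or.inl (by rw [← hi', mul_inv_cancel])
    · exact Or.inr (by rw [← hi', mul_inv_cancel_right])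
  have hval : ∀ b ∈ S.B, δ (g * x' * g⁻¹) b = δ x' b := by
    intro b hb
    have hb' : g⁻¹ * b * g ∈ S.B := by simpa using S.hBn.conj_mem b hb g⁻¹
    have h1 : δ (g * x' * g⁻¹) b = g * δ x' (g⁻¹ * b * g) * g⁻¹ := by unfold δ; group
    have hr : b⁻¹ * (g⁻¹ * b * g) ∈ S.B := S.B.mul_mem (S.B.inv_mem hb) hb'
    have hrr : b⁻¹ * (g⁻¹ * b * g) * (b⁻¹ * (g⁻¹ * b * g)) = 1 ∨
        b⁻¹ * (g⁻¹ * b * g) * (b⁻¹ * (g⁻¹ * b * g)) = e := by
      have h2 : b⁻¹ * (g⁻¹ * b * g) * (b⁻¹ * (g⁻¹ * b * g)) = g⁻¹ * (b * b) * g * (b * b)⁻¹ := by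
        have c1 : Commute (g⁻¹ * b * g) b⁻¹ := S.comm_B hb' (S.B.inv_mem hb)
        calc b⁻¹ * (g⁻¹ * b * g) * (b⁻¹ * (g⁻¹ * b * g))
            = (b⁻¹ * (g⁻¹ * b * g)) ^ 2 := (pow_two _).symm
          _ = (g⁻¹ * b * g) ^ 2 * b⁻¹ ^ 2 := by rw [← c1.eq, c1.mul_pow]
          _ = _ := by rw [pow_two, pow_two]; group
      rw [h2]
      have hu := S.sq_mem_E hb
      have hu' : g⁻¹ * (b * b) * g ∈ S.E := by simpa using S.E_normal.conj_mem _ hu g⁻¹
      rcases hEtwo _ hu' with h3 | h3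
      · left
        rw [show g * (g⁻¹ * (b * b) * g) * g⁻¹ = b * b by group, mul_inv_eq_one] at h3
        rw [← h3, mul_inv_cancel]
      · right
        rw [show g * (g⁻¹ * (b * b) * g) * g⁻¹ = b * b by group] at h3
        rw [← inv_eq_of_mul_eq_one_right h.he.2, ← h3]
        simp only [mul_inv_rev, inv_inv, mul_assoc]
    have h2 : δ x' (g⁻¹ * b * g) = δ x' b := by
      have := S.δ_mul_right (x := x') hb hr
      rw [mul_inv_cancel_left, hgood.hker _ hr hrr, mul_one] at this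
      exact this
    rw [h1, h2]
    rcases hgood.hval b hb with h3 | h3 <;> rw [h3]
    · group
    · rw [h.hez g, mul_inv_cancel_right]
  have hc : x'⁻¹ * (g * x' * g⁻¹) ∈ S.C :=
    S.inv_mul_mem_C_of_δ hgood.hx hgK fun b hb => (hval b hb).symm
  set c := g * x' * g⁻¹ * x'⁻¹ with hcdef
  have hcC : c ∈ S.C := by
    have := S.C_normal.conj_mem _ hc x'
    rwa [show x' * (x'⁻¹ * (g * x' * g⁻¹)) * x'⁻¹ = c by rw [hcdef]; group] at this
  have hxinv : x'⁻¹ = x' := inv_eq_of_mul_eq_one_right hxx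
  have hcx : x' * c * x'⁻¹ = c⁻¹ := by
    rw [hcdef]
    simp only [mul_inv_rev, inv_inv, conj_mul]
    rw [show x' * (g * x' * g⁻¹ * x'⁻¹) * x'⁻¹ = x' * (g * x' * g⁻¹) * (x' * x')⁻¹ by group, hxx,
      inv_one, mul_one]
    rw [hxinv]
    simp only [mul_assoc]
  by_contra hcE
  have hcc : c * c ≠ 1 := fun h' => hcE (S.mem_E_of_sq hcC h')
  obtain ⟨j, hj1, hj2⟩ := exists_sq_eq_one_ne_one S.hP hcc
  have hd4 : (c ^ j) ^ 4 = 1 := by
    rw [show (4 : ℕ) = 2 + 2 by norm_num, pow_add, pow_two, ← (Commute.refl c).mul_pow, hj2]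
  have hdB := S.mem_B_of_pow_four (S.C.pow_mem hcC j) hd4
  have hdx : x' * c ^ j * x'⁻¹ = (c ^ j)⁻¹ := by rw [← conj_pow, hcx, inv_pow]
  have hδ : δ x' (c ^ j) = (c ^ j * c ^ j)⁻¹ := by
    unfold δ; rw [hdx, mul_inv_rev]
  have hne : δ x' (c ^ j) ≠ 1 := by
    rw [hδ, inv_ne_one, ← (Commute.refl c).mul_pow]
    exact hj1
  refine hne ?_
  rcases hgood.hval _ hdB with h1 | h1
  · exact h1
  · refine hgood.hker _ hdB (Or.inr ?_)
    rw [← inv_inj, ← hδ, h1, inv_eq_of_mul_eq_one_right h.he.2]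

/-- The δ of a `2`-element of `C` commuting with `x`. -/
theorem δ_of_commute {x b : P} (h : x * b * x⁻¹ = b) : δ x b = 1 := by
  unfold δ; rw [h, mul_inv_cancel]

/-- A good element forces a defect of at most two on `H ⊓ C`. -/
theorem card_inf_le_of_good (h4 : Nat.card S.E = 4) {H : Subgroup P} {e x : P} (hxH : x ∈ H)
    (h : S.Good e x) :
    Nat.card ↥(H ⊓ S.C) ≤ 2 * Nat.card ↥(H ⊓ S.C ⊓ sqG H) := by
  haveI : Fact (Nat.Prime 2) := ⟨Nat.prime_two⟩
  by_contra hlt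
  push Not at hlt
  set H0 := H ⊓ S.C with hH0
  have hle : sqG H0 ≤ H0 ⊓ sqG H := le_inf (sqG_le H0) (sqG_mono inf_le_left)
  have heq : H0 ⊓ sqG H = sqG H0 := by
    refine (Subgroup.eq_of_le_of_card_ge hle ?_).symm
    have h1 := S.card_le_sqG (H := H0) inf_le_right
    rw [h4] at h1
    obtain ⟨a, ha⟩ := IsPGroup.iff_card.1 (S.hP.to_subgroup H0)
    obtain ⟨b, hb⟩ := IsPGroup.iff_card.1 (S.hP.to_subgroup (H0 ⊓ sqG H : Subgroup P))
    obtain ⟨c, hc⟩ := IsPGroup.iff_card.1 (S.hP.to_subgroup (sqG H0))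
    rw [ha, hc, show 2 ^ c * 4 = 2 ^ (c + 2) by ring] at h1
    rw [ha, hb, ← pow_succ'] at hlt
    have h2 := (Nat.pow_le_pow_iff_right (by norm_num : 1 < 2)).1 h1
    have h3 := (Nat.pow_lt_pow_iff_right (by norm_num : 1 < 2)).1 hlt
    rw [hb, hc]
    exact Nat.pow_le_pow_right two_pos (by omega)
  suffices key : ∀ k : ℕ, ∀ x : P, x ∈ H → S.Good e x → (x * x) ^ 2 ^ k = 1 → False by
    obtain ⟨k, hk⟩ := S.hP (x * x)
    exact key k x hxH h hk
  intro k
  induction k with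
  | zero =>
    intro x _ hg hx
    refine S.good_sq_not_mem h4 hg ?_
    simp at hx
    exact hx ▸ S.E.one_mem
  | succ k ih =>
    intro x hxH hg hx
    set s := x * x with hs
    by_cases h1 : s ^ 2 ^ k = 1
    · exact ih x hxH hg h1
    rcases k with _ | j
    · refine S.good_sq_not_mem h4 hg (S.mem_E_of_sq (S.sq_mem_C hg.hx) ?_)
      simpa [pow_two] using hx
    have hsC : s ∈ S.C := S.sq_mem_C hg.hx
    obtain ⟨h, hh, hhs⟩ := S.exists_sq (H := H0) inf_le_right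
      (heq ▸ ⟨⟨H.mul_mem hxH hxH, hsC⟩, mul_self_mem_sqG hxH⟩ : s ∈ sqG H0)
    set d := s ^ 2 ^ j with hd
    have hd4 : d ^ 4 = 1 := by
      rw [hd, ← pow_mul, show 2 ^ j * 4 = 2 ^ (j + 1 + 1) by ring, hx]
    have hdd : d * d ≠ 1 := by
      rw [hd, ← pow_add, ← mul_two, ← pow_succ]; exact h1
    have hhd : h ^ 2 ^ (j + 1) = d := by
      rw [hd, ← hhs, pow_succ', pow_mul, pow_two]
    set h' := x * h * x⁻¹ with hh'
    have hh'd : h' ^ 2 ^ (j + 1) = d := by
      rw [hh', conj_pow, hhd, hd, ← conj_pow, show x * s * x⁻¹ = s by rw [hs]; group]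
    have hh'C : h' ∈ S.C := S.C_normal.conj_mem h hh.2 x
    have hδ := S.pow_inj_C hh'C hh.2 (hh'd.trans hhd.symm)
    refine ih (x * h⁻¹) (H.mul_mem hxH (H.inv_mem hh.1)) (S.good_mul_C hg (S.C.inv_mem hh.2)) ?_
    have e1 : x * h⁻¹ * (x * h⁻¹) = h⁻¹ * (h' * h⁻¹)⁻¹ * h := by
      calc x * h⁻¹ * (x * h⁻¹) = (x * h⁻¹ * x⁻¹) * (x * x) * h⁻¹ := by group
        _ = (x * h⁻¹ * x⁻¹) * (h * h) * h⁻¹ := by rw [hhs]
        _ = _ := by rw [hh']; group
    rw [e1, show h⁻¹ * (h' * h⁻¹)⁻¹ * h = h⁻¹ * (h' * h⁻¹)⁻¹ * h⁻¹⁻¹ by rw [inv_inv], conj_pow,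
      inv_pow, hδ, inv_one, mul_one, mul_inv_cancel]

/-- An element inducing a fixed-point-free map on `B / Ω₁B` forces `|C_P(E) : C| ≤ 4`. -/
theorem card_K_le_of_omega (h4 : Nat.card S.E = 4) (hsurj : ∀ u ∈ S.E, ∃ b ∈ S.B, b * b = u)
    {x : P} (hx : x ∈ S.K) (h : ∀ b ∈ S.B, b * b ≠ 1 → δ x b ≠ 1 ∧ δ x b ≠ b * b) :
    Nat.card S.K ≤ 4 * Nat.card S.C := by
  classical
  haveI : Fact (Nat.Prime 2) := ⟨Nat.prime_two⟩
  -- no element of order four of `C` commutes with a lift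
  have hfix : ∀ x : P, x ∈ S.K → (∀ b ∈ S.B, b * b ≠ 1 → δ x b ≠ 1 ∧ δ x b ≠ b * b) →
      ∀ c ∈ S.C, (x * c * x⁻¹ = c ∨ x * c * x⁻¹ = c⁻¹) → c * c = 1 := by
    intro x hx h c hc hcase
    by_contra hcc
    obtain ⟨j, hj1, hj2⟩ := exists_sq_eq_one_ne_one S.hP hcc
    have hd4 : (c ^ j) ^ 4 = 1 := by
      rw [show (4 : ℕ) = 2 + 2 by norm_num, pow_add, pow_two, ← (Commute.refl c).mul_pow, hj2]
    have hdB := S.mem_B_of_pow_four (S.C.pow_mem hc j) hd4
    have hdd : c ^ j * c ^ j ≠ 1 := by rwa [← (Commute.refl c).mul_pow]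
    rcases hcase with hh | hh
    · exact (h _ hdB hdd).1 (δ_of_commute (by rw [← conj_pow, hh]))
    · refine (h _ hdB hdd).2 ?_
      have h2 : δ x (c ^ j) = (c ^ j * c ^ j)⁻¹ := by
        unfold δ
        rw [← conj_pow, hh, inv_pow, mul_inv_rev]
      rw [h2]
      exact inv_eq_of_mul_eq_one_right (S.sq_mem_E hdB).2
  have hsE : x * x ∈ S.E :=
    S.mem_E_of_sq (S.sq_mem_C hx) (hfix x hx h _ (S.sq_mem_C hx) (Or.inl (by group)))
  -- `b ↦ δ(b) b²` is onto `E`
  obtain ⟨b, hb, hbs⟩ : ∃ b ∈ S.B, δ x b * (b * b) = x * x := by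
    choose r hrB hr using hsurj
    let g : S.E → S.E := fun u => ⟨δ x (r u u.2) * u,
      S.E.mul_mem (S.δ_mem hx (hrB u u.2)) u.2⟩
    have hinj : Function.Injective g := by
      intro u v huv
      by_contra hne
      have h' : δ x (r u u.2) * u = δ x (r v v.2) * v := congrArg Subtype.val huv
      set w := r u u.2 * r v v.2 with hw
      have hwB := S.B.mul_mem (hrB u u.2) (hrB v v.2)
      have hcc := S.comm_B (hrB v v.2) (hrB u u.2)
      have hww : w * w = (u : P) * v := by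
        rw [hw, show r u u.2 * r v v.2 * (r u u.2 * r v v.2) = r u u.2 * (r v v.2 * r u u.2) * r v v.2
          by group, hcc.eq,
          show r u u.2 * (r u u.2 * r v v.2) * r v v.2 = r u u.2 * r u u.2 * (r v v.2 * r v v.2) by
            group, hr u u.2, hr v v.2]
      have hw1 : w * w ≠ 1 := by
        rw [hww]
        intro he
        exact hne (Subtype.ext ((mul_eq_one_iff_eq_inv.1 he).trans
          (inv_eq_of_mul_eq_one_right v.2.2)))
      refine (h w hwB hw1).2 ?_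
      rw [hww, hw, S.δ_mul_right (hrB u u.2) (hrB v v.2)]
      have hu2 := u.2.2
      have hv2 := (S.δ_mem hx (hrB v v.2)).2
      have c1 := (S.comm_B (S.δ_mem hx (hrB v v.2)).1 u.2.1).eq
      have e1 : δ x (r u u.2) = δ x (r v v.2) * v * u := by
        rw [← h', mul_assoc, hu2, mul_one]
      rw [e1, mul_assoc _ (u : P), ← c1, mul_assoc, (S.comm_B v.2.1 (S.E.mul_mem (S.δ_mem hx
        (hrB v v.2)) u.2).1).eq, ← mul_assoc, ← mul_assoc, hv2, one_mul]
    obtain ⟨u, hu⟩ := (Finite.injective_iff_surjective.1 hinj) ⟨x * x, hsE⟩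
    exact ⟨r u u.2, hrB u u.2, by rw [hr u u.2]; exact congrArg Subtype.val hu⟩
  set y := x * b with hy
  have hyK : y ∈ S.K := S.K.mul_mem hx (S.C_le_K (S.B_le_C hb))
  have hyy : y * y = 1 := by
    calc y * y = x * b * x⁻¹ * (x * x) * b := by show x * b * (x * b) = _; group
      _ = δ x b * b * (x * x) * b := by rw [conj_eq_δ_mul]
      _ = δ x b * ((x * x) * b) * b := by rw [(S.comm_B hsE.1 hb).eq]; group
      _ = δ x b * (x * x) * (b * b) := by group
      _ = δ x b * ((b * b) * (x * x)) := by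
          rw [mul_assoc, (S.comm_B hsE.1 (S.B.mul_mem hb hb)).eq]
      _ = x * x * (x * x) := by rw [← mul_assoc, hbs]
      _ = 1 := hsE.2
  have hyh : ∀ b' ∈ S.B, b' * b' ≠ 1 → δ y b' ≠ 1 ∧ δ y b' ≠ b' * b' := fun b' hb' hne => by
    rw [hy, S.δ_mul_C hx (S.B_le_C hb) hb']; exact h b' hb' hne
  have hyinv : y⁻¹ = y := inv_eq_of_mul_eq_one_right hyy
  have hKE : ∀ z ∈ S.K, z * z ∈ S.E := by
    intro z hz
    set c := y * z * y⁻¹ * z⁻¹ with hc
    have hcC : c ∈ S.C := S.comm_mem_C hyK hz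
    have hcE : c ∈ S.E := by
      refine S.mem_E_of_sq hcC (hfix y hyK hyh c hcC (Or.inr ?_))
      rw [hc, hyinv]
      calc y * (y * z * y * z⁻¹) * y = (y * y) * z * y * z⁻¹ * y := by group
        _ = z * y * z⁻¹ * y := by rw [hyy, one_mul]
        _ = _ := by simp only [mul_inv_rev, inv_inv, hyinv, mul_assoc]
    have hzz : y * (z * z) * y⁻¹ = z * z := by
      calc y * (z * z) * y⁻¹ = (c * z) * (c * z) := by rw [hc]; group
        _ = c * c * (z * z) := by
            rw [show c * z * (c * z) = c * (z * c) * z by group, (S.commute_K hz hcE).eq]; group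
        _ = z * z := by rw [hcE.2, one_mul]
    exact S.mem_E_of_sq (S.sq_mem_C hz) (hfix y hyK hyh _ (S.sq_mem_C hz) (Or.inl hzz))
  -- hence `C = B` and the Chevalley-Warning count applies
  have hCB : S.C ≤ S.B := fun c hc => S.mem_B_of_pow_four hc (by
    rw [show (4 : ℕ) = 2 * 2 by norm_num, pow_mul, pow_two c, pow_two, (hKE c (S.C_le_K hc)).2])
  haveI := S.E_normal
  haveI := S.K_normal
  have hK : Nat.card S.K < 128 := by
    by_contra hbig
    push Not at hbig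
    obtain ⟨z, hzK, hzE, hzz, hzinv⟩ := CfsgLib.KGroups.QuadCount.exists_involution_invariant S.hP
      S.E S.K (fun e he => S.C_le_K (S.B_le_C he.1)) (fun l hl e he => (S.commute_K hl he).eq)
      (fun e he => he.2) h4 hKE hbig
    exact S.false_of_invariant_involution h4 hzK hzE hzz hzinv
  have hB16 : 16 ≤ Nat.card S.C := by
    choose r hrB hr using hsurj
    have := Nat.card_le_card_of_injective
      (fun p : S.E × S.E => (⟨r p.1 p.1.2 * p.2, S.C.mul_mem (S.B_le_C (hrB _ _))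
        (S.B_le_C p.2.2.1)⟩ : S.C)) (by
        intro p q hpq
        have h' : r p.1 p.1.2 * (p.2 : P) = r q.1 q.1.2 * q.2 := congrArg Subtype.val hpq
        have hsq : ∀ (u : S.E) (w : S.E), r u u.2 * (w : P) * (r u u.2 * w) = u := fun u w => by
          rw [show r u u.2 * (w : P) * (r u u.2 * w) = r u u.2 * ((w : P) * r u u.2) * w by group,
            (S.comm_B w.2.1 (hrB u u.2)).eq,
            show r u u.2 * (r u u.2 * (w : P)) * w = r u u.2 * r u u.2 * ((w : P) * w) by group,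
            hr, w.2.2, mul_one]
        have h1 : p.1 = q.1 := Subtype.ext (by rw [← hsq p.1 p.2, h', hsq q.1 q.2])
        obtain ⟨p1, p2⟩ := p
        obtain ⟨q1, q2⟩ := q
        simp only at h1 h'
        subst h1
        rw [mul_right_inj] at h'
        rw [Subtype.ext h'])
    rw [Nat.card_prod, h4] at this
    exact this
  obtain ⟨a, ha⟩ := IsPGroup.iff_card.1 (S.hP.to_subgroup S.K)
  rw [ha] at hK ⊢
  have : 2 ^ a ≤ 2 ^ 6 := Nat.pow_le_pow_right two_pos (by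
    have h128 : (128 : ℕ) = 2 ^ 7 := by norm_num
    rw [h128] at hK
    have := (Nat.pow_lt_pow_iff_right (by norm_num : 1 < 2)).1 hK
    omega)
  omega

/-- `|X / X ⊓ C| · |X ⊓ C| = |X|`. -/
theorem card_map_mul (X : Subgroup P) [S.C.Normal] :
    Nat.card ↥(X.map (QuotientGroup.mk' S.C)) * Nat.card ↥(X ⊓ S.C) = Nat.card X := by
  have h := ((QuotientGroup.mk' S.C).comp X.subtype).ker.index_mul_card
  rw [Subgroup.index_ker, MonoidHom.range_comp, Subgroup.range_subtype] at h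
  rw [← h]
  congr 1
  refine Nat.card_congr
    { toFun := fun x => ⟨⟨x.1, x.2.1⟩, (QuotientGroup.eq_one_iff _).2 x.2.2⟩
      invFun := fun x => ⟨x.1.1, x.1.2, (QuotientGroup.eq_one_iff _).1 x.2⟩
      left_inv := fun _ => rfl
      right_inv := fun _ => rfl }

theorem mem_four (h4 : Nat.card S.E = 4) {a b : P} (ha : a ∈ S.E) (hb : b ∈ S.E) (ha1 : a ≠ 1)
    (hb1 : b ≠ 1) (hab : a ≠ b) {w : P} (hw : w ∈ S.E) : w = 1 ∨ w = a ∨ w = b ∨ w = a * b := by
  classical
  haveI := Fintype.ofFinite S.E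
  have ha' : a⁻¹ = a := inv_eq_of_mul_eq_one_right ha.2
  let f : Fin 4 → S.E := ![1, ⟨a, ha⟩, ⟨b, hb⟩, ⟨a * b, S.E.mul_mem ha hb⟩]
  have hinj : Function.Injective f := by
    intro i j hij
    have h' := congrArg Subtype.val hij
    fin_cases i <;> fin_cases j <;> simp [f] at h' <;>
      first
      | rfl
      | exact absurd h' ha1
      | exact absurd h'.symm ha1
      | exact absurd h' hb1
      | exact absurd h'.symm hb1
      | exact absurd h' hab
      | exact absurd h'.symm hab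
      | (exfalso; apply hab; rw [← ha']; first
          | exact (eq_inv_of_mul_eq_one_right h').symm
          | exact (eq_inv_of_mul_eq_one_right h'.symm).symm)
  obtain ⟨i, hi⟩ := ((Fintype.bijective_iff_injective_and_card f).2
    ⟨hinj, by rw [Fintype.card_fin, ← Nat.card_eq_fintype_card, h4]⟩).2 ⟨w, hw⟩
  have hi' := congrArg Subtype.val hi
  fin_cases i <;> simp [f] at hi' <;> simp [hi']

theorem conj_cases (h4 : Nat.card S.E = 4) {e : P} (he : e ∈ S.E) (he1 : e ≠ 1)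
    (hez : ∀ g : P, g * e = e * g) (g : P) {u : P} (hu : u ∈ S.E) :
    g * u * g⁻¹ = u ∨ g * u * g⁻¹ = u * e := by
  by_cases h1 : u = 1
  · exact Or.inl (by rw [h1]; group)
  by_cases h2 : u = e
  · exact Or.inl (by rw [h2, hez g, mul_inv_cancel_right])
  rcases S.mem_four h4 he hu he1 h1 (Ne.symm h2) (S.E_normal.conj_mem u hu g) with h | h | h | h
  · exact absurd (conj_eq_one_iff.1 h) h1
  · refine absurd ?_ h2
    have := congrArg (fun w => g⁻¹ * w * g) h
    simp only [mul_assoc, inv_mul_cancel_left, inv_mul_cancel, mul_one] at this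
    rw [this, ← hez, inv_mul_cancel_left]
  · exact Or.inl h
  · exact Or.inr (h.trans (S.comm_B he.1 hu.1).eq)

theorem eq_of_fixed (h4 : Nat.card S.E = 4) {e e2 : P} (he : e ∈ S.E) (he1 : e ≠ 1)
    (hez : ∀ g : P, g * e = e * g) {y : P} (he2 : e2 ∈ S.E) (hmove : y * e2 * y⁻¹ = e2 * e) {w : P}
    (hw : w ∈ S.E) (hfix : y * w * y⁻¹ = w) : w = 1 ∨ w = e := by
  have h21 : e2 ≠ 1 := fun h => he1 (by
    rw [h, mul_one, mul_inv_cancel, one_mul] at hmove; exact hmove.symm)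
  have h2e : e2 ≠ e := fun h => he1 (by
    rw [h, hez y, mul_inv_cancel_right, he.2] at hmove; exact hmove)
  rcases S.mem_four h4 he he2 he1 h21 (Ne.symm h2e) hw with h | h | h | h
  · exact Or.inl h
  · exact Or.inr h
  · rw [h, hmove, mul_eq_left] at hfix
    exact absurd hfix he1
  · rw [h, show y * (e * e2) * y⁻¹ = y * e * y⁻¹ * (y * e2 * y⁻¹) by group, hez y,
      mul_inv_cancel_right, hmove, ← mul_assoc, mul_eq_left] at hfix
    exact absurd hfix he1

/-- `B` modulo `Ω₁B` is controlled by two elements with independent squares. -/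
theorem B_cases (h4 : Nat.card S.E = 4) {c1 c2 : P} (h1 : c1 ∈ S.B) (h2 : c2 ∈ S.B)
    (h11 : c1 * c1 ≠ 1) (h22 : c2 * c2 ≠ 1) (h12 : c1 * c1 ≠ c2 * c2) {b : P} (hb : b ∈ S.B) :
    b ∈ S.E ∨ (c1⁻¹ * b ∈ S.E ∧ b * b = c1 * c1) ∨ (c2⁻¹ * b ∈ S.E ∧ b * b = c2 * c2) ∨
      ((c1 * c2)⁻¹ * b ∈ S.E ∧ b * b = c1 * c1 * (c2 * c2)) := by
  have h3 : c1 * c2 * (c1 * c2) = c1 * c1 * (c2 * c2) := by
    rw [show c1 * c2 * (c1 * c2) = c1 * (c2 * c1) * c2 by group, (S.comm_B h2 h1).eq]; group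
  rcases S.mem_four h4 (S.sq_mem_E h1) (S.sq_mem_E h2) h11 h22 h12 (S.sq_mem_E hb) with h | h | h | h
  · exact Or.inl ⟨hb, h⟩
  · exact Or.inr (Or.inl ⟨S.sq_inj_B h1 hb h.symm, h⟩)
  · exact Or.inr (Or.inr (Or.inl ⟨S.sq_inj_B h2 hb h.symm, h⟩))
  · exact Or.inr (Or.inr (Or.inr ⟨S.sq_inj_B (S.B.mul_mem h1 h2) hb (by rw [h3, h]), h⟩))

theorem δ_of_coset {x c b : P} (hx : x ∈ S.K) (hc : c ∈ S.B) (hb : c⁻¹ * b ∈ S.E) :
    δ x b = δ x c := by
  conv_lhs => rw [← mul_inv_cancel_left c b]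
  rw [S.δ_mul_right hc hb.1, S.δ_of_mem_E hx hb, mul_one]

theorem good_of_basis (h4 : Nat.card S.E = 4) {e x c1 c2 : P} (hx : x ∈ S.K) (h1 : c1 ∈ S.B)
    (h2 : c2 ∈ S.B) (he : c1 * c1 = e) (he1 : e ≠ 1) (hez : ∀ g : P, g * e = e * g)
    (h22 : c2 * c2 ≠ 1) (h12 : e ≠ c2 * c2) (hd1 : δ x c1 = 1) (hd2 : δ x c2 = e) :
    S.Good e x := by
  subst he
  have hcases := fun {b : P} (hb : b ∈ S.B) => S.B_cases h4 h1 h2 he1 h22 h12 hb
  refine ⟨hx, fun hxC => he1 (by rw [← hd2, S.δ_of_mem_C hxC h2]), S.sq_mem_E h1, hez, ?_, ?_, ?_⟩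
  · intro b hb
    rcases hcases hb with h | ⟨h, -⟩ | ⟨h, -⟩ | ⟨h, -⟩
    · exact Or.inl (S.δ_of_mem_E hx h)
    · exact Or.inl ((S.δ_of_coset hx h1 h).trans hd1)
    · exact Or.inr ((S.δ_of_coset hx h2 h).trans hd2)
    · exact Or.inr ((S.δ_of_coset hx (S.B.mul_mem h1 h2) h).trans (by
        rw [S.δ_mul_right h1 h2, hd1, hd2, one_mul]))
  · intro b hb hbb
    rcases hcases hb with h | ⟨h, -⟩ | ⟨-, h⟩ | ⟨-, h⟩
    · exact S.δ_of_mem_E hx h
    · exact (S.δ_of_coset hx h1 h).trans hd1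
    · rcases hbb with h' | h'
      · exact absurd (h.symm.trans h') h22
      · exact absurd (h'.symm.trans h) h12
    · rcases hbb with h' | h'
      · refine absurd ?_ h12
        rw [h'] at h
        exact (mul_eq_one_iff_eq_inv.1 h.symm).trans (inv_eq_of_mul_eq_one_right (S.sq_mem_E h2).2)
      · rw [h'] at h
        exact absurd (mul_eq_left.1 h.symm) h22
  · intro u hu
    rcases S.mem_four h4 (S.sq_mem_E h1) (S.sq_mem_E h2) he1 h22 h12 hu with rfl | rfl | rfl | rfl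
    · exact ⟨1, S.B.one_mem, mul_one 1⟩
    · exact ⟨c1, h1, rfl⟩
    · exact ⟨c2, h2, rfl⟩
    · exact ⟨c1 * c2, S.B.mul_mem h1 h2, by
        rw [show c1 * c2 * (c1 * c2) = c1 * (c2 * c1) * c2 by group, (S.comm_B h2 h1).eq]; group⟩

/-- Elements of `K` commuting with `y ∉ K` modulo `C`. -/
theorem card_le_of_equivariant (h4 : Nat.card S.E = 4) {e e2 y : P} (he : e ∈ S.E) (he1 : e ≠ 1)
    (hez : ∀ g : P, g * e = e * g) (he2 : e2 ∈ S.E) (hmove : y * e2 * y⁻¹ = e2 * e) (X : Subgroup P)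
    (hXK : X ≤ S.K) (hX : ∀ x ∈ X, y * x * y⁻¹ * x⁻¹ ∈ S.C) :
    Nat.card X ≤ 4 * Nat.card ↥(X ⊓ S.C) ∧
      (2 * Nat.card ↥(X ⊓ S.C) < Nat.card X → ∃ x ∈ X, S.Good e x) := by
  classical
  haveI := S.C_normal
  have heq : ∀ x ∈ X, ∀ b ∈ S.B, δ x (y * b * y⁻¹) = y * δ x b * y⁻¹ := by
    intro x hx b hb
    have hb' : y * b * y⁻¹ ∈ S.B := S.hBn.conj_mem b hb y
    have h1 : δ (y * x * y⁻¹) (y * b * y⁻¹) = y * δ x b * y⁻¹ := by unfold δ; group
    rw [← h1]
    have h2 : δ (y * x * y⁻¹ * x⁻¹ * x) (y * b * y⁻¹) = δ x (y * b * y⁻¹) := by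
      rw [S.δ_mul_left (S.C_le_K (hX x hx)) (hXK hx) hb', S.δ_of_mem_C (hX x hx) hb', one_mul]
    rw [← h2, inv_mul_cancel_right]
  have hfix : ∀ x ∈ X, ∀ b ∈ S.B, δ x (y * b * y⁻¹) = δ x b → δ x b = 1 ∨ δ x b = e :=
    fun x hx b hb h => S.eq_of_fixed h4 he he1 hez he2 hmove (S.δ_mem (hXK hx) hb)
      ((heq x hx b hb).symm.trans h)
  have hval : ∀ x ∈ X, ∀ b ∈ S.B, (b * b = 1 ∨ b * b = e) → δ x b = 1 ∨ δ x b = e := by
    intro x hx b hb hbb
    refine hfix x hx b hb (S.δ_of_coset (hXK hx) hb (S.sq_inj_B hb (S.hBn.conj_mem b hb y) ?_))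
    rw [show y * b * y⁻¹ * (y * b * y⁻¹) = y * (b * b) * y⁻¹ by group]
    rcases hbb with h | h
    · rw [h, mul_one, mul_inv_cancel]
    · rw [h, hez y, mul_inv_cancel_right]
  by_cases hsmall : ∀ b ∈ S.B, b * b = 1 ∨ b * b = e
  · have h2 : Nat.card X ≤ 2 * Nat.card ↥(X ⊓ S.C) := by
      by_cases hb1 : ∃ b ∈ S.B, b * b = e
      · obtain ⟨b1, hb1, hb11⟩ := hb1
        refine le_trans (card_le_of_fibres X (X ⊓ S.C) (fun x => decide (δ (x : P) b1 = 1))
          fun u v huv => ?_) (le_of_eq (by rw [Nat.card_eq_fintype_card (α := Bool), Fintype.card_bool]))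
        refine ⟨X.mul_mem (X.inv_mem u.2) v.2, S.inv_mul_mem_C_of_δ (hXK u.2) (hXK v.2) fun b hb => ?_⟩
        rcases hsmall b hb with h | h
        · rw [S.δ_of_mem_E (hXK u.2) ⟨hb, h⟩, S.δ_of_mem_E (hXK v.2) ⟨hb, h⟩]
        · rw [S.δ_of_coset (hXK u.2) hb1 (S.sq_inj_B hb1 hb (hb11.trans h.symm)),
            S.δ_of_coset (hXK v.2) hb1 (S.sq_inj_B hb1 hb (hb11.trans h.symm))]
          simp only [decide_eq_decide] at huv
          rcases hval u u.2 b1 hb1 (Or.inr hb11) with h1 | h1 <;>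
            rcases hval v v.2 b1 hb1 (Or.inr hb11) with h2 | h2 <;> rw [h1, h2]
          · exact absurd ((huv.1 h1).symm.trans h2).symm he1
          · exact absurd ((huv.2 h2).symm.trans h1).symm he1
      · push Not at hb1
        have : X ≤ X ⊓ S.C := fun x hx => ⟨hx, S.mem_C_of_δ fun b hb =>
          S.δ_of_mem_E (hXK hx) ⟨hb, (hsmall b hb).resolve_right (hb1 b hb)⟩⟩
        have := Subgroup.card_le_of_le this
        omega
    exact ⟨by omega, fun h => absurd h2 (not_le.2 h)⟩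
  push Not at hsmall
  obtain ⟨b2, hb2, hb21, hb2e⟩ := hsmall
  have hb2' : y * b2 * y⁻¹ ∈ S.B := S.hBn.conj_mem b2 hb2 y
  set b1 := b2⁻¹ * (y * b2 * y⁻¹) with hb1d
  have hb1 : b1 ∈ S.B := S.B.mul_mem (S.B.inv_mem hb2) hb2'
  have hb11 : b1 * b1 = e := by
    have h1 : y * (b2 * b2) * y⁻¹ = b2 * b2 * e := by
      rcases S.conj_cases h4 he he1 hez y (S.sq_mem_E hb2) with h | h
      · exact absurd (S.eq_of_fixed h4 he he1 hez he2 hmove (S.sq_mem_E hb2) h)
          (by rintro (h' | h'); exacts [hb21 h', hb2e h'])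
      · exact h
    have c1 : Commute (y * b2 * y⁻¹) b2⁻¹ := S.comm_B hb2' (S.B.inv_mem hb2)
    calc b1 * b1 = (b2⁻¹ * (y * b2 * y⁻¹)) ^ 2 := (pow_two _).symm
      _ = (b2⁻¹) ^ 2 * (y * b2 * y⁻¹) ^ 2 := c1.symm.mul_pow 2
      _ = (b2 * b2)⁻¹ * (y * (b2 * b2) * y⁻¹) := by rw [pow_two, pow_two]; group
      _ = e := by rw [h1, inv_mul_cancel_left]
  let L : Subgroup P :=
    { carrier := {x | x ∈ X ∧ δ x b1 = 1}
      one_mem' := ⟨X.one_mem, S.δ_of_mem_C S.C.one_mem hb1⟩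
      mul_mem' := fun {u v} hu hv => ⟨X.mul_mem hu.1 hv.1, by
        rw [S.δ_mul_left (hXK hu.1) (hXK hv.1) hb1, hu.2, hv.2, one_mul]⟩
      inv_mem' := fun {u} hu => ⟨X.inv_mem hu.1, by rw [S.δ_inv_left (hXK hu.1) hb1, hu.2]⟩ }
  have hL2 : ∀ x ∈ L, δ x b2 = 1 ∨ δ x b2 = e := fun x hx => by
    refine hfix x hx.1 b2 hb2 ?_
    have : δ x (b2 * b1) = δ x b2 * δ x b1 := S.δ_mul_right hb2 hb1
    rwa [hx.2, mul_one, hb1d, mul_inv_cancel_left] at this
  have hcases := fun {b : P} (hb : b ∈ S.B) =>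
    S.B_cases h4 hb1 hb2 (hb11.symm ▸ he1) hb21 (hb11.symm ▸ Ne.symm hb2e) hb
  have hLgood : ∀ x ∈ L, δ x b2 = e → S.Good e x := fun x hx h =>
    S.good_of_basis h4 (hXK hx.1) hb1 hb2 hb11 he1 hez hb21 (Ne.symm hb2e) hx.2 h
  have hLC : ∀ x ∈ L, δ x b2 = 1 → x ∈ S.C := fun x hx h => S.mem_C_of_δ fun b hb => by
    rcases hcases hb with h' | ⟨h', -⟩ | ⟨h', -⟩ | ⟨h', -⟩
    · exact S.δ_of_mem_E (hXK hx.1) h'
    · exact (S.δ_of_coset (hXK hx.1) hb1 h').trans hx.2
    · exact (S.δ_of_coset (hXK hx.1) hb2 h').trans h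
    · rw [S.δ_of_coset (hXK hx.1) (S.B.mul_mem hb1 hb2) h', S.δ_mul_right hb1 hb2, hx.2, h, one_mul]
  have hXL : Nat.card X ≤ 2 * Nat.card L := by
    refine le_trans (card_le_of_fibres X L (fun x => decide (δ (x : P) b1 = 1)) fun u v huv => ?_)
      (le_of_eq (by rw [Nat.card_eq_fintype_card (α := Bool), Fintype.card_bool]))
    refine ⟨X.mul_mem (X.inv_mem u.2) v.2, ?_⟩
    rw [S.δ_mul_left (S.K.inv_mem (hXK u.2)) (hXK v.2) hb1, S.δ_inv_left (hXK u.2) hb1]
    simp only [decide_eq_decide] at huv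
    rcases hval u u.2 b1 hb1 (Or.inr hb11) with h1 | h1 <;>
      rcases hval v v.2 b1 hb1 (Or.inr hb11) with h2 | h2 <;> rw [h1, h2]
    · exact one_mul 1
    · exact absurd ((huv.1 h1).symm.trans h2).symm he1
    · exact absurd ((huv.2 h2).symm.trans h1).symm he1
    · exact he.2
  have hLX : Nat.card L ≤ 2 * Nat.card ↥(X ⊓ S.C) := by
    refine le_trans (card_le_of_fibres L (X ⊓ S.C) (fun x => decide (δ (x : P) b2 = 1))
      fun u v huv => ?_) (le_of_eq (by rw [Nat.card_eq_fintype_card (α := Bool), Fintype.card_bool]))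
    refine ⟨X.mul_mem (X.inv_mem u.2.1) v.2.1, hLC _ (L.mul_mem (L.inv_mem u.2) v.2) ?_⟩
    rw [S.δ_mul_left (S.K.inv_mem (hXK u.2.1)) (hXK v.2.1) hb2, S.δ_inv_left (hXK u.2.1) hb2]
    simp only [decide_eq_decide] at huv
    rcases hL2 u u.2 with h1 | h1 <;> rcases hL2 v v.2 with h2 | h2 <;> rw [h1, h2]
    · exact one_mul 1
    · exact absurd ((huv.1 h1).symm.trans h2).symm he1
    · exact absurd ((huv.2 h2).symm.trans h1).symm he1
    · exact he.2
  refine ⟨by omega, fun hgt => ?_⟩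
  by_contra hno
  push Not at hno
  have : L ≤ X ⊓ S.C := fun x hx => ⟨hx.1, hLC x hx ((hL2 x hx).resolve_right fun h =>
    hno x hx.1 (hLgood x hx h))⟩
  have := Subgroup.card_le_of_le this
  omega

/-- The number of `C`-cosets in a subgroup is at most four when `Ω₁B` or `B/Ω₁B` is small. -/
theorem card_le_of_small {H : Subgroup P} (hHK : H ≤ S.K)
    (hsmall : ∃ u : P, ∀ b ∈ S.B, b * b = 1 ∨ b * b = u) :
    Nat.card H ≤ Nat.card S.E * Nat.card ↥(H ⊓ S.C) := by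
  classical
  obtain ⟨u, hu⟩ := hsmall
  by_cases hb : ∃ b0 ∈ S.B, b0 * b0 = u
  · obtain ⟨b0, hb0, hb00⟩ := hb
    refine card_le_of_fibres H (H ⊓ S.C)
      (fun x => (⟨δ (x : P) b0, S.δ_mem (hHK x.2) hb0⟩ : S.E)) fun p q hpq => ?_
    refine ⟨H.mul_mem (H.inv_mem p.2) q.2, S.inv_mul_mem_C_of_δ (hHK p.2) (hHK q.2) fun b hb => ?_⟩
    rcases hu b hb with h | h
    · rw [S.δ_of_mem_E (hHK p.2) ⟨hb, h⟩, S.δ_of_mem_E (hHK q.2) ⟨hb, h⟩]
    · rw [S.δ_of_coset (hHK p.2) hb0 (S.sq_inj_B hb0 hb (hb00.trans h.symm)),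
        S.δ_of_coset (hHK q.2) hb0 (S.sq_inj_B hb0 hb (hb00.trans h.symm))]
      exact congrArg Subtype.val hpq
  · push Not at hb
    have : H ≤ H ⊓ S.C := fun x hx => ⟨hx, S.mem_C_of_δ fun b hb' =>
      S.δ_of_mem_E (hHK hx) ⟨hb', (hu b hb').resolve_right (hb b hb')⟩⟩
    calc Nat.card H ≤ 1 * Nat.card ↥(H ⊓ S.C) := by rw [one_mul]; exact Subgroup.card_le_of_le this
      _ ≤ _ := Nat.mul_le_mul_right _ Nat.card_pos

/-- Squaring is onto `Ω₁B` when a subgroup of `K` has more than four cosets of `C`. -/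
theorem surj_of_large (h4 : Nat.card S.E = 4) {H : Subgroup P} (hHK : H ≤ S.K)
    (hlarge : 4 * Nat.card ↥(H ⊓ S.C) < Nat.card H) : ∀ u ∈ S.E, ∃ b ∈ S.B, b * b = u := by
  intro u hu
  by_contra hno
  push Not at hno
  have hnot : ¬ ∃ u : P, ∀ b ∈ S.B, b * b = 1 ∨ b * b = u := fun h => by
    have := S.card_le_of_small hHK h
    rw [h4] at this
    omega
  push Not at hnot
  obtain ⟨c1, hc1, h11, -⟩ := hnot 1
  obtain ⟨c2, hc2, h22, h12⟩ := hnot (c1 * c1)
  rcases S.mem_four h4 (S.sq_mem_E hc1) (S.sq_mem_E hc2) h11 h22 (Ne.symm h12) hu with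
    rfl | rfl | rfl | rfl
  · exact hno 1 S.B.one_mem (mul_one 1)
  · exact hno c1 hc1 rfl
  · exact hno c2 hc2 rfl
  · exact hno (c1 * c2) (S.B.mul_mem hc1 hc2) (by
      rw [show c1 * c2 * (c1 * c2) = c1 * (c2 * c1) * c2 by group, (S.comm_B hc2 hc1).eq]; group)

/-- A subgroup of `K` has at most eight cosets of `C`; with more than four and `K = P` it contains a
good element. -/
theorem card_le_eight (h4 : Nat.card S.E = 4) {H : Subgroup P} (hHK : H ≤ S.K)
    (hlarge : 4 * Nat.card ↥(H ⊓ S.C) < Nat.card H) :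
    Nat.card H ≤ 8 * Nat.card ↥(H ⊓ S.C) ∧
      ((∀ g : P, g ∈ S.K) → ∃ e x, x ∈ H ∧ S.Good e x) := by
  classical
  haveI := S.C_normal
  have hsurj := S.surj_of_large h4 hHK hlarge
  obtain ⟨e1, e2, he1, he2, h11, h22, h12⟩ : ∃ e1 e2 : P, e1 ∈ S.E ∧ e2 ∈ S.E ∧ e1 ≠ 1 ∧ e2 ≠ 1 ∧
      e1 ≠ e2 := by
    by_contra hcon
    push Not at hcon
    obtain ⟨a, ha⟩ : ∃ a : P, ∀ u ∈ S.E, u = 1 ∨ u = a := by
      by_cases h : ∃ a ∈ S.E, a ≠ 1
      · obtain ⟨a, ha, ha1⟩ := h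
        exact ⟨a, fun u hu => or_iff_not_imp_left.2 fun hu1 => hcon u a hu ha hu1 ha1⟩
      · push Not at h
        exact ⟨1, fun u hu => Or.inl (h u hu)⟩
    have hle : Nat.card S.E ≤ Nat.card Bool := Nat.card_le_card_of_injective
      (fun w : S.E => decide (w = 1)) fun v w hvw => by
        simp only [decide_eq_decide] at hvw
        apply Subtype.ext
        rcases ha v v.2 with h | h
        · rw [h, congrArg Subtype.val (hvw.1 (Subtype.ext h))]; rfl
        · rcases ha w w.2 with h' | h'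
          · rw [h', congrArg Subtype.val (hvw.2 (Subtype.ext h'))]; rfl
          · rw [h, h']
    rw [h4, Nat.card_eq_fintype_card (α := Bool), Fintype.card_bool] at hle
    omega
  obtain ⟨b1, hb1, hb11⟩ := hsurj e1 he1
  obtain ⟨b2, hb2, hb22⟩ := hsurj e2 he2
  have hee : e1 * e2 ∈ S.E := S.E.mul_mem he1 he2
  have hcases := fun {b : P} (hb : b ∈ S.B) =>
    S.B_cases h4 hb1 hb2 (hb11.symm ▸ h11) (hb22.symm ▸ h22) (by rw [hb11, hb22]; exact h12) hb
  let Δ : H →* S.E × S.E :=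
    { toFun := fun x => (⟨δ (x : P) b1, S.δ_mem (hHK x.2) hb1⟩, ⟨δ (x : P) b2, S.δ_mem (hHK x.2) hb2⟩)
      map_one' := Prod.ext (Subtype.ext (S.δ_of_mem_C S.C.one_mem hb1))
        (Subtype.ext (S.δ_of_mem_C S.C.one_mem hb2))
      map_mul' := fun x z => Prod.ext (Subtype.ext (S.δ_mul_left (hHK x.2) (hHK z.2) hb1))
        (Subtype.ext (S.δ_mul_left (hHK x.2) (hHK z.2) hb2)) }
  have hker : Nat.card Δ.ker ≤ Nat.card ↥(H ⊓ S.C) := by
    refine Nat.card_le_card_of_injective (fun z => ⟨((z : H) : P), (z : H).2, S.mem_C_of_δ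
      fun b hb => ?_⟩) fun z z' h => Subtype.ext (Subtype.ext (congrArg (fun w : ↥(H ⊓ S.C) => (w : P)) h))
    have h1 : δ ((z : H) : P) b1 = 1 := congrArg (fun p : S.E × S.E => (p.1 : P)) z.2
    have h2 : δ ((z : H) : P) b2 = 1 := congrArg (fun p : S.E × S.E => (p.2 : P)) z.2
    rcases hcases hb with h' | ⟨h', -⟩ | ⟨h', -⟩ | ⟨h', -⟩
    · exact S.δ_of_mem_E (hHK (z : H).2) h'
    · exact (S.δ_of_coset (hHK (z : H).2) hb1 h').trans h1
    · exact (S.δ_of_coset (hHK (z : H).2) hb2 h').trans h2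
    · rw [S.δ_of_coset (hHK (z : H).2) (S.B.mul_mem hb1 hb2) h', S.δ_mul_right hb1 hb2, h1, h2,
        one_mul]
  set T := Δ.range with hT
  have hHT : Nat.card H ≤ Nat.card T * Nat.card ↥(H ⊓ S.C) := by
    have h := Δ.ker.index_mul_card
    rw [Subgroup.index_ker] at h
    rw [← h]
    exact Nat.mul_le_mul_left _ hker
  have h16 : Nat.card (S.E × S.E) = 16 := by rw [Nat.card_prod, h4]
  have hnoω : ∀ x : H, ¬ (∀ b ∈ S.B, b * b ≠ 1 → δ (x : P) b ≠ 1 ∧ δ (x : P) b ≠ b * b) := by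
    intro x hx
    have hKle := S.card_K_le_of_omega h4 hsurj (hHK x.2) hx
    have h1 := S.card_map_mul S.K
    rw [inf_eq_right.2 S.C_le_K] at h1
    have h2 := S.card_map_mul H
    have h3 : Nat.card ↥(H.map (QuotientGroup.mk' S.C)) ≤
        Nat.card ↥(S.K.map (QuotientGroup.mk' S.C)) :=
      Subgroup.card_le_of_le (Subgroup.map_mono hHK)
    have h5 : Nat.card ↥(S.K.map (QuotientGroup.mk' S.C)) ≤ 4 :=
      Nat.le_of_mul_le_mul_right (h1.trans_le hKle) Nat.card_pos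
    have h6 := Nat.mul_le_mul_right (Nat.card ↥(H ⊓ S.C)) (h3.trans h5)
    omega
  let p : P → P → S.E × S.E → Prop := fun u v w => (w.1 : P) = u ∧ (w.2 : P) = v
  have hω : ∀ w : S.E × S.E, (p e2 (e1 * e2) w ∨ p (e1 * e2) e1 w) → w ∉ T := by
    rintro w hw ⟨x, rfl⟩
    refine hnoω x fun b hb hbb => ?_
    have he21 : e2 * e1 = e1 * e2 := (S.comm_B he2.1 he1.1).eq
    have hne3 : e1 * e2 ≠ 1 := fun h => h12 ((mul_eq_one_iff_eq_inv.1 h).trans
      (inv_eq_of_mul_eq_one_right he2.2))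
    rcases hcases hb with h' | ⟨h', hs⟩ | ⟨h', hs⟩ | ⟨h', hs⟩
    · exact absurd h'.2 hbb
    · rw [S.δ_of_coset (hHK x.2) hb1 h', hs, hb11]
      rcases hw with ⟨ha, -⟩ | ⟨ha, -⟩ <;> rw [show δ (x : P) b1 = _ from ha]
      · exact ⟨h22, Ne.symm h12⟩
      · exact ⟨hne3, fun h => h22 (mul_eq_left.1 h)⟩
    · rw [S.δ_of_coset (hHK x.2) hb2 h', hs, hb22]
      rcases hw with ⟨-, ha⟩ | ⟨-, ha⟩ <;> rw [show δ (x : P) b2 = _ from ha]
      · exact ⟨hne3, fun h => h11 (mul_eq_right.1 h)⟩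
      · exact ⟨h11, h12⟩
    · rw [S.δ_of_coset (hHK x.2) (S.B.mul_mem hb1 hb2) h', S.δ_mul_right hb1 hb2, hs, hb11, hb22]
      rcases hw with ⟨ha, hb'⟩ | ⟨ha, hb'⟩ <;>
        rw [show δ (x : P) b1 = _ from ha, show δ (x : P) b2 = _ from hb']
      · rw [← mul_assoc, he21, mul_assoc, he2.2, mul_one]
        exact ⟨h11, fun h => h22 (left_eq_mul.1 h)⟩
      · rw [← he21, mul_assoc, he1.2, mul_one]
        exact ⟨h22, fun h => h11 (right_eq_mul.1 (h.trans he21))⟩
  have hT8 : T.index = 2 := by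
    have hmul := T.card_mul_index
    rw [h16] at hmul
    obtain ⟨k, hk⟩ := (Nat.dvd_prime_pow Nat.prime_two).1
      (show T.index ∣ 2 ^ 4 from ⟨Nat.card T, by rw [mul_comm, hmul]; norm_num⟩)
    obtain ⟨hk4, hk⟩ := hk
    rw [hk] at hmul ⊢
    rcases k with _ | _ | k
    · exfalso
      have : T = ⊤ := Subgroup.index_eq_one.1 hk
      exact hω (⟨e2, he2⟩, ⟨e1 * e2, hee⟩) (Or.inl ⟨rfl, rfl⟩) (this ▸ Subgroup.mem_top _)
    · rfl
    · exfalso
      have hle : 4 ≤ 2 ^ (k + 1 + 1) := by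
        calc (4 : ℕ) = 2 ^ 2 := rfl
          _ ≤ _ := Nat.pow_le_pow_right two_pos (by omega)
      have := Nat.mul_le_mul_left (Nat.card T) hle
      have hT4 : Nat.card T ≤ 4 := by omega
      have := Nat.mul_le_mul_right (Nat.card ↥(H ⊓ S.C)) hT4
      omega
  have hTc : Nat.card T = 8 := by
    have := T.card_mul_index
    rw [hT8, h16] at this
    omega
  rw [hTc] at hHT
  refine ⟨hHT, fun hall => ?_⟩
  have hcent : ∀ u ∈ S.E, ∀ g : P, g * u = u * g := fun u hu g => (S.commute_K (hall g) hu).eq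
  have hι : ((⟨e1, he1⟩, ⟨e2, he2⟩) : S.E × S.E) ∈ T := by
    have h1 := hω (⟨e2, he2⟩, ⟨e1 * e2, hee⟩) (Or.inl ⟨rfl, rfl⟩)
    have h2 := hω (⟨e1 * e2, hee⟩, ⟨e1, he1⟩) (Or.inr ⟨rfl, rfl⟩)
    have h3 := (Subgroup.mul_mem_iff_of_index_two hT8).2 (iff_of_false h1 h2)
    convert h3 using 1
    refine Prod.ext (Subtype.ext ?_) (Subtype.ext ?_)
    · show e1 = e2 * (e1 * e2)
      rw [← mul_assoc, (S.comm_B he2.1 he1.1).eq, mul_assoc, he2.2, mul_one]
    · show e2 = e1 * e2 * e1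
      rw [(S.comm_B he1.1 he2.1).eq, mul_assoc, he1.2, mul_one]
  by_cases hN1 : ((1, ⟨e1, he1⟩) : S.E × S.E) ∈ T
  · obtain ⟨x, hx⟩ := hN1
    exact ⟨e1, x, x.2, S.good_of_basis h4 (hHK x.2) hb1 hb2 hb11 h11 (hcent e1 he1)
      (hb22.symm ▸ h22) (hb22.symm ▸ h12) (congrArg (fun p : S.E × S.E => (p.1 : P)) hx)
      (congrArg (fun p : S.E × S.E => (p.2 : P)) hx)⟩
  by_cases hN2 : ((⟨e2, he2⟩, 1) : S.E × S.E) ∈ T
  · obtain ⟨x, hx⟩ := hN2
    exact ⟨e2, x, x.2, S.good_of_basis h4 (hHK x.2) hb2 hb1 hb22 h22 (hcent e2 he2)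
      (hb11.symm ▸ h11) (hb11.symm ▸ Ne.symm h12) (congrArg (fun p : S.E × S.E => (p.2 : P)) hx)
      (congrArg (fun p : S.E × S.E => (p.1 : P)) hx)⟩
  have hN3 : ((⟨e1 * e2, hee⟩, ⟨e1 * e2, hee⟩) : S.E × S.E) ∈ T := by
    have h3 := T.mul_mem hι ((Subgroup.mul_mem_iff_of_index_two hT8).2 (iff_of_false hN1 hN2))
    convert h3 using 1
    refine Prod.ext (Subtype.ext ?_) (Subtype.ext ?_)
    · show e1 * e2 = e1 * (1 * e2)
      rw [one_mul]
    · show e1 * e2 = e2 * (e1 * 1)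
      rw [mul_one, (S.comm_B he2.1 he1.1).eq]
  obtain ⟨x, hx⟩ := hN3
  have hd1 : δ (x : P) b1 = e1 * e2 := congrArg (fun p : S.E × S.E => (p.1 : P)) hx
  have hd2 : δ (x : P) b2 = e1 * e2 := congrArg (fun p : S.E × S.E => (p.2 : P)) hx
  refine ⟨e1 * e2, x, x.2, S.good_of_basis h4 (hHK x.2) (S.B.mul_mem hb1 hb2) hb1 ?_ ?_
    (hcent _ hee) (hb11.symm ▸ h11) ?_ ?_ hd1⟩
  · rw [show b1 * b2 * (b1 * b2) = b1 * (b2 * b1) * b2 by group, (S.comm_B hb2 hb1).eq,
      show b1 * (b1 * b2) * b2 = b1 * b1 * (b2 * b2) by group, hb11, hb22]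
  · exact fun h => h12 ((mul_eq_one_iff_eq_inv.1 h).trans (inv_eq_of_mul_eq_one_right he2.2))
  · rw [hb11]; exact fun h => h22 (mul_eq_left.1 h)
  · rw [S.δ_mul_right hb1 hb2, hd1, hd2, hee.2]

theorem le_normalizer_sqG {H : Subgroup P} : H ≤ Subgroup.normalizer (sqG H : Set P) := by
  intro g hg
  have hconj : ∀ g ∈ H, ∀ z ∈ sqG H, g * z * g⁻¹ ∈ sqG H := by
    intro g hg z hz
    have hm : (sqG H).map (MulAut.conj g).toMonoidHom ≤ sqG H := by
      rw [map_sqG]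
      refine sqG_mono ?_
      rintro _ ⟨h, hh, rfl⟩
      exact H.mul_mem (H.mul_mem hg hh) (H.inv_mem hg)
    exact hm ⟨z, hz, rfl⟩
  rw [Subgroup.mem_normalizer_iff]
  refine fun z => ⟨hconj g hg z, fun h => ?_⟩
  have := hconj g⁻¹ (H.inv_mem hg) _ h
  simpa [mul_assoc] using this

theorem comm_mem_sqG {H : Subgroup P} {y x : P} (hy : y ∈ H) (hx : x ∈ H) :
    y * x * y⁻¹ * x⁻¹ ∈ sqG H := by
  rw [show y * x * y⁻¹ * x⁻¹ = y * y * (y⁻¹ * x * (y⁻¹ * x)) * (x⁻¹ * x⁻¹) by group]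
  exact (sqG H).mul_mem ((sqG H).mul_mem (mul_self_mem_sqG hy)
    (mul_self_mem_sqG (H.mul_mem (H.inv_mem hy) hx))) (mul_self_mem_sqG (H.inv_mem hx))

/-- Conjugation by `y`, as a homomorphism from a subgroup of `K` to `P ⧸ C`. -/
def commHom [S.C.Normal] (X : Subgroup P) (hX : X ≤ S.K) (y : P) : X →* P ⧸ S.C :=
  MonoidHom.mk' (fun x => QuotientGroup.mk (y * (x : P) * y⁻¹ * (x : P)⁻¹)) fun a b => by
    have hyb : y * (b : P) * y⁻¹ * (b : P)⁻¹ ∈ S.K :=
      S.K.mul_mem (S.K_normal.conj_mem _ (hX b.2) y) (S.K.inv_mem (hX b.2))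
    have hc : (((a : P) * (y * b * y⁻¹ * (b : P)⁻¹) * (a : P)⁻¹ *
        (y * b * y⁻¹ * (b : P)⁻¹)⁻¹ : P) : P ⧸ S.C) = 1 :=
      (QuotientGroup.eq_one_iff _).2 (S.comm_mem_C (hX a.2) hyb)
    rw [QuotientGroup.mk_mul, QuotientGroup.mk_inv, mul_inv_eq_one] at hc
    rw [Subgroup.coe_mul, show y * ((a : P) * b) * y⁻¹ * ((a : P) * b)⁻¹ =
      y * a * y⁻¹ * (a : P)⁻¹ * ((a : P) * (y * b * y⁻¹ * (b : P)⁻¹) * (a : P)⁻¹) by group,
      QuotientGroup.mk_mul, hc]

include S in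
/-- The main bound. -/
theorem card_le_sixteen_mul (H : Subgroup P) : Nat.card H ≤ 16 * Nat.card (sqG H) := by
  classical
  haveI : Fact (Nat.Prime 2) := ⟨Nat.prime_two⟩
  haveI := S.C_normal
  set H0 := H ⊓ S.C with hH0
  set J := H0 ⊔ sqG H with hJ
  have hJc : Nat.card J * Nat.card ↥(H0 ⊓ sqG H) = Nat.card H0 * Nat.card (sqG H) :=
    CfsgLib.NormalPComplement.card_sup_mul_card_inf (inf_le_left.trans le_normalizer_sqG)
  have hinf : Nat.card H0 ≤ Nat.card S.E * Nat.card ↥(H0 ⊓ sqG H) := by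
    refine (S.card_le_sqG (H := H0) inf_le_right).trans ?_
    rw [mul_comm]
    exact Nat.mul_le_mul_left _ (Subgroup.card_le_of_le (le_inf (sqG_le H0) (sqG_mono inf_le_left)))
  have hfin : ∀ r : ℕ, Nat.card H0 ≤ r * Nat.card ↥(H0 ⊓ sqG H) →
      Nat.card J ≤ r * Nat.card (sqG H) := by
    intro r hr
    refine Nat.le_of_mul_le_mul_right (?_ : _ * Nat.card ↥(H0 ⊓ sqG H) ≤ _) Nat.card_pos
    rw [hJc, mul_assoc, mul_comm (Nat.card (sqG H)), ← mul_assoc]
    exact Nat.mul_le_mul_right _ hr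
  have hJ0 : Nat.card H0 ≤ Nat.card J := Subgroup.card_le_of_le le_sup_left
  have hA : Nat.card H ≤ 4 * Nat.card J → Nat.card H ≤ 16 * Nat.card (sqG H) := fun h => by
    have := hfin 4 (hinf.trans (Nat.mul_le_mul_right _ S.card_E_le))
    omega
  have hB : (∃ e x, x ∈ H ∧ S.Good e x) → Nat.card S.E = 4 → Nat.card H ≤ 8 * Nat.card J →
      Nat.card H ≤ 16 * Nat.card (sqG H) := by
    rintro ⟨e, x, hxH, hg⟩ h4 h
    have := hfin 2 (S.card_inf_le_of_good h4 hxH hg)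
    omega
  by_cases h4 : Nat.card S.E = 4
  swap
  · -- `|Ω₁B| ≤ 2`
    refine hA ?_
    obtain ⟨k, hk⟩ := IsPGroup.iff_card.1 (S.hP.to_subgroup S.E)
    have hE2 : Nat.card S.E ≤ 2 := by
      have := S.card_E_le
      rcases k with _ | _ | k
      · rw [pow_zero] at hk; omega
      · rw [zero_add, pow_one] at hk; omega
      · have : 2 ^ 2 ≤ 2 ^ (k + 1 + 1) := Nat.pow_le_pow_right two_pos (by omega)
        omega
    obtain ⟨u, hu⟩ : ∃ u : P, ∀ w ∈ S.E, w = 1 ∨ w = u := by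
      by_cases h : ∃ a ∈ S.E, a ≠ 1
      · obtain ⟨a, ha, ha1⟩ := h
        refine ⟨a, fun w hw => or_iff_not_imp_left.2 fun hw1 => ?_⟩
        by_contra hwa
        have hinj : Function.Injective
            (![1, ⟨a, ha⟩, ⟨w, hw⟩] : Fin 3 → S.E) := by
          intro i j hij
          have h' := congrArg Subtype.val hij
          fin_cases i <;> fin_cases j <;> simp at h' <;>
            first
            | rfl
            | exact absurd h' ha1
            | exact absurd h'.symm ha1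
            | exact absurd h' hw1
            | exact absurd h'.symm hw1
            | exact absurd h' hwa
            | exact absurd h'.symm hwa
        have := Nat.card_le_card_of_injective _ hinj
        rw [Nat.card_fin] at this
        omega
      · push Not at h
        exact ⟨1, fun w hw => Or.inl (h w hw)⟩
    have hK : H ≤ S.K := fun g _ => Subgroup.mem_centralizer_iff.2 fun w hw => by
      rcases hu w hw with rfl | rfl
      · rw [one_mul, mul_one]
      · rcases hu _ (S.E_normal.conj_mem w hw g) with h | h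
        · rw [conj_eq_one_iff.1 h, one_mul, mul_one]
        · exact (mul_inv_eq_iff_eq_mul.1 h).symm
    have h1 := S.card_le_of_small hK ⟨u, fun b hb => hu _ (S.sq_mem_E hb)⟩
    have h3 : Nat.card H ≤ 2 * Nat.card H0 := h1.trans (Nat.mul_le_mul_right _ hE2)
    omega
  obtain ⟨e, he, he1, hez⟩ : ∃ e ∈ S.E, e ≠ 1 ∧ ∀ g : P, g * e = e * g := by
    haveI := S.E_normal
    obtain ⟨z, hz, hz1, hzc⟩ := CfsgLib.TwoGroups.exists_mem_center_of_normal S.hP
      (N := S.E) (fun h => by rw [h, Subgroup.card_bot] at h4; omega)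
    exact ⟨z, hz, hz1, fun g => Subgroup.mem_center_iff.1 hzc g⟩
  have hmoves : ∀ y : P, y ∉ S.K → ∃ u ∈ S.E, y * u * y⁻¹ = u * e := by
    intro y hy
    by_contra hcon
    push Not at hcon
    exact hy (Subgroup.mem_centralizer_iff.2 fun u hu =>
      (mul_inv_eq_iff_eq_mul.1 ((S.conj_cases h4 he he1 hez y hu).resolve_right (hcon u hu))).symm)
  by_cases hHK : H ≤ S.K
  · by_cases hsm : Nat.card H ≤ 4 * Nat.card H0
    · exact hA (by omega)
    push Not at hsm
    obtain ⟨h8, hgood⟩ := S.card_le_eight h4 hHK hsm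
    refine hB ?_ h4 (h8.trans (Nat.mul_le_mul_left _ hJ0))
    by_cases hall : ∀ g : P, g ∈ S.K
    · exact hgood hall
    push Not at hall
    obtain ⟨y, hy⟩ := hall
    obtain ⟨e2, he2, hmove⟩ := hmoves y hy
    -- a good element of `K` fixed by `y` modulo `C`
    set Z := ((S.commHom S.K le_rfl y).ker).map S.K.subtype with hZ
    have hZmem : ∀ z, z ∈ Z ↔ z ∈ S.K ∧ y * z * y⁻¹ * z⁻¹ ∈ S.C := fun z => by
      constructor
      · rintro ⟨w, hw, rfl⟩
        exact ⟨w.2, (QuotientGroup.eq_one_iff _).1 hw⟩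
      · rintro ⟨h1, h2⟩
        exact ⟨⟨z, h1⟩, (QuotientGroup.eq_one_iff _).2 h2, rfl⟩
    have hZK : Z ≤ S.K := fun z hz => ((hZmem z).1 hz).1
    have hZgood := (S.card_le_of_equivariant h4 he he1 hez he2 hmove Z hZK
      fun z hz => ((hZmem z).1 hz).2).2
    have hCZ : S.C ≤ Z := fun c hc => (hZmem c).2 ⟨S.C_le_K hc,
      S.C.mul_mem (S.C_normal.conj_mem c hc y) (S.C.inv_mem hc)⟩
    have hmapH : 4 < Nat.card ↥(H.map (QuotientGroup.mk' S.C)) := by
      have h2 := S.card_map_mul H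
      rw [← h2] at hsm
      exact Nat.lt_of_mul_lt_mul_right hsm
    have hKlarge : 4 * Nat.card ↥(S.K ⊓ S.C) < Nat.card S.K := by
      have h1 := S.card_map_mul S.K
      have h3 : Nat.card ↥(H.map (QuotientGroup.mk' S.C)) ≤
          Nat.card ↥(S.K.map (QuotientGroup.mk' S.C)) :=
        Subgroup.card_le_of_le (Subgroup.map_mono hHK)
      rw [← h1]
      exact Nat.mul_lt_mul_of_pos_right (hmapH.trans_le h3) Nat.card_pos
    obtain ⟨x, hxZ, hxg⟩ := hZgood (by
      by_contra hle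
      push Not at hle
      have hcomp := (S.commHom S.K le_rfl y).ker.index_mul_card
      rw [Subgroup.index_ker] at hcomp
      have hcZ : Nat.card Z = Nat.card (S.commHom S.K le_rfl y).ker :=
        Subgroup.card_map_of_injective S.K.subtype_injective
      have hrange : (S.commHom S.K le_rfl y).range ≤ Z.map (QuotientGroup.mk' S.C) := by
        rintro _ ⟨w, rfl⟩
        have hwK : y * (w : P) * y⁻¹ * (w : P)⁻¹ ∈ S.K :=
          S.K.mul_mem (S.K_normal.conj_mem _ w.2 y) (S.K.inv_mem w.2)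
        refine ⟨_, (hZmem _).2 ⟨hwK, ?_⟩, rfl⟩
        have hy2 : y * y ∈ S.K := Subgroup.mem_centralizer_iff.2 fun u hu => by
          have h2 : y * y * u * (y * y)⁻¹ = u := by
            rcases S.conj_cases h4 he he1 hez y hu with h | h
            · rw [show y * y * u * (y * y)⁻¹ = y * (y * u * y⁻¹) * y⁻¹ by group, h, h]
            · rw [show y * y * u * (y * y)⁻¹ = y * (y * u * y⁻¹) * y⁻¹ by group, h,
                show y * (u * e) * y⁻¹ = y * u * y⁻¹ * (y * e * y⁻¹) by group, h, hez y,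
                mul_inv_cancel_right, mul_assoc, he.2, mul_one]
          exact (mul_inv_eq_iff_eq_mul.1 h2).symm
        set c := y * (w : P) * y⁻¹ * (w : P)⁻¹ with hc
        have h1 : c * c ∈ S.C := S.sq_mem_C hwK
        have h3 : y * c * y⁻¹ * c ∈ S.C := by
          rw [show y * c * y⁻¹ * c = (y * y * w * (y * y)⁻¹ * (w : P)⁻¹) *
            (w * (y * w * y⁻¹)⁻¹ * (w : P)⁻¹ * (y * w * y⁻¹)) *
            ((y * w * y⁻¹)⁻¹ * (w : P) * (y * w * y⁻¹) * (w : P)⁻¹) by rw [hc]; group]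
          have hcj := S.K_normal.conj_mem _ w.2 y
          refine S.C.mul_mem (S.C.mul_mem (S.comm_mem_C hy2 w.2) ?_) ?_
          · simpa using S.comm_mem_C w.2 (S.K.inv_mem hcj)
          · simpa using S.comm_mem_C (S.K.inv_mem hcj) w.2
        rw [show y * c * y⁻¹ * c⁻¹ = y * c * y⁻¹ * c * (c * c)⁻¹ by group]
        exact S.C.mul_mem h3 (S.C.inv_mem h1)
      have hr := Subgroup.card_le_of_le hrange
      have hZm := S.card_map_mul Z
      rw [inf_eq_right.2 hCZ] at hle hZm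
      rw [inf_eq_right.2 S.C_le_K] at hKlarge
      have hr2 : Nat.card ↥(Z.map (QuotientGroup.mk' S.C)) ≤ 2 :=
        Nat.le_of_mul_le_mul_right (hZm.trans_le hle) Nat.card_pos
      have h5 : Nat.card S.K ≤ 2 * (2 * Nat.card S.C) := by
        rw [← hcomp, ← hcZ]
        exact Nat.mul_le_mul (hr.trans hr2) hle
      omega)
    have hmaps : H.map (QuotientGroup.mk' S.C) = S.K.map (QuotientGroup.mk' S.C) := by
      refine Subgroup.eq_of_le_of_card_ge (Subgroup.map_mono hHK) ?_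
      have hK8 := (S.card_le_eight h4 le_rfl hKlarge).1
      have h1 := S.card_map_mul S.K
      have hk : Nat.card ↥(S.K.map (QuotientGroup.mk' S.C)) ≤ 8 :=
        Nat.le_of_mul_le_mul_right (h1.trans_le hK8) Nat.card_pos
      obtain ⟨k, hkk⟩ := IsPGroup.iff_card.1
        ((S.hP.to_quotient S.C).to_subgroup (H.map (QuotientGroup.mk' S.C)))
      rw [hkk] at hmapH ⊢
      have : 3 ≤ k := by
        by_contra hh
        interval_cases k <;> omega
      have : 2 ^ 3 ≤ 2 ^ k := Nat.pow_le_pow_right two_pos this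
      omega
    obtain ⟨h, hh, hhx⟩ : (QuotientGroup.mk' S.C x) ∈ H.map (QuotientGroup.mk' S.C) :=
      hmaps ▸ ⟨x, hZK hxZ, rfl⟩
    refine ⟨e, h, hh, ?_⟩
    have hc : x⁻¹ * h ∈ S.C := QuotientGroup.eq.1 hhx.symm
    simpa using S.good_mul_C hxg hc
  -- `H` not in `K`
  obtain ⟨y, hyH, hy⟩ := SetLike.not_le_iff_exists.1 hHK
  obtain ⟨e2, he2, hmove⟩ := hmoves y hy
  set H1 := H ⊓ S.K with hH1
  have h2 : Nat.card H ≤ 2 * Nat.card H1 := by
    refine le_trans (card_le_of_fibres H H1 (fun x => decide ((x : P) ∈ S.K)) fun a b hab => ?_)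
      (le_of_eq (by rw [Nat.card_eq_fintype_card (α := Bool), Fintype.card_bool]))
    refine ⟨H.mul_mem (H.inv_mem a.2) b.2, ?_⟩
    simp only [decide_eq_decide] at hab
    by_cases ha : (a : P) ∈ S.K
    · exact S.K.mul_mem (S.K.inv_mem ha) (hab.1 ha)
    · have hb : (b : P) ∉ S.K := fun h => ha (hab.2 h)
      refine Subgroup.mem_centralizer_iff.2 fun u hu => ?_
      have hsame : (a : P) * u * (a : P)⁻¹ = (b : P) * u * (b : P)⁻¹ := by
        -- both move the same elements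
        have hmv : ∀ g : P, g ∉ S.K → ∀ w ∈ S.E,
            g * w * g⁻¹ = if w = 1 ∨ w = e then w else w * e := by
          intro g hg w hw
          obtain ⟨v, hv, hvm⟩ := hmoves g hg
          split_ifs with hwe
          · rcases hwe with rfl | rfl
            · group
            · rw [hez g, mul_inv_cancel_right]
          · exact (S.conj_cases h4 he he1 hez g hw).resolve_left fun h =>
              hwe (S.eq_of_fixed h4 he he1 hez hv hvm hw h)
        rw [hmv _ ha u hu, hmv _ hb u hu]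
      have hh := congrArg (fun w => (a : P)⁻¹ * w * (b : P)) hsame
      simp only [mul_assoc, inv_mul_cancel_left, inv_mul_cancel, mul_one] at hh
      rw [← mul_assoc]
      rw [← mul_assoc] at hh
      rw [mul_assoc]
      simpa [mul_assoc] using hh
  set ψ := S.commHom H1 inf_le_right y with hψ
  set Z := ψ.ker.map H1.subtype with hZ
  have hZ1 : Z ≤ H1 := Subgroup.map_subtype_le _
  have hcards : Nat.card H1 = Nat.card ψ.range * Nat.card Z := by
    rw [hZ, Subgroup.card_map_of_injective H1.subtype_injective, ← Subgroup.index_ker,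
      Subgroup.index_mul_card]
  have hrange : ψ.range ≤ J.map (QuotientGroup.mk' S.C) := by
    rintro _ ⟨w, rfl⟩
    exact ⟨_, Subgroup.mem_sup_right (comm_mem_sqG hyH w.2.1), rfl⟩
  have hJr : Nat.card ψ.range * Nat.card H0 ≤ Nat.card J := by
    rw [← S.card_map_mul J]
    refine Nat.mul_le_mul (Subgroup.card_le_of_le hrange) (Subgroup.card_le_of_le ?_)
    exact le_inf le_sup_left inf_le_right
  have hZC : Nat.card ↥(Z ⊓ S.C) ≤ Nat.card H0 :=
    Subgroup.card_le_of_le (inf_le_inf_right _ (hZ1.trans inf_le_left))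
  obtain ⟨hZ4, hZgood⟩ := S.card_le_of_equivariant h4 he he1 hez he2 hmove Z
    (hZ1.trans inf_le_right) (by
      rintro _ ⟨w, hw, rfl⟩
      exact (QuotientGroup.eq_one_iff _).1 hw)
  have hbound : ∀ r : ℕ, Nat.card Z ≤ r * Nat.card ↥(Z ⊓ S.C) → Nat.card H ≤ 2 * r * Nat.card J := by
    intro r hr
    refine h2.trans ?_
    rw [mul_assoc, hcards]
    refine Nat.mul_le_mul_left _ ?_
    calc Nat.card ψ.range * Nat.card Z ≤ Nat.card ψ.range * (r * Nat.card H0) :=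
          Nat.mul_le_mul_left _ (hr.trans (Nat.mul_le_mul_left _ hZC))
      _ = r * (Nat.card ψ.range * Nat.card H0) := by ring
      _ ≤ r * Nat.card J := Nat.mul_le_mul_left _ hJr
  by_cases hz : 2 * Nat.card ↥(Z ⊓ S.C) < Nat.card Z
  · obtain ⟨x, hx, hg⟩ := hZgood hz
    exact hB ⟨e, x, (hZ1 hx).1, hg⟩ h4 (hbound 4 hZ4)
  · exact hA (hbound 2 (not_lt.1 hz))

end Setting

/-- **MacWilliams' four generator theorem.** In a 2-group without normal elementary abelian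
subgroups of order eight the squares of every subgroup generate a subgroup of index at most 16. -/
theorem card_le_sixteen_mul_sqG (hP : IsPGroup 2 P)
    (hno : ∀ A : Subgroup P, A.Normal → IsMulCommutative A → (∀ a ∈ A, a ^ 2 = 1) →
      Nat.card A ≤ 4) (H : Subgroup P) : Nat.card H ≤ 16 * Nat.card (sqG H) :=
  (exists_setting hP hno).some.card_le_sixteen_mul H

end CfsgLib.KGroups.FourGenerator
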